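import Mathlib
import Cfsg.Agent.Base
import Cfsg.Agent.Lib.KR.Defs

set_option autoImplicit false
set_option linter.unusedSectionVars false
set_option linter.style.haveILetI false

namespace H81.KR

open Subgroup Cfsg

universe u

namespace Perm

universe v

theorem sq_lt (k : ℕ) (hk : 6 ≤ k) : (k + 1) * (k + 1) < 2 ^ k := by
  induction k, hk using Nat.le_induction with
  | base => norm_num
  | succ k hk ih => rw [pow_succ]; nlinarith

theorem pow_le {t m : ℕ} (h9 : 9 ≤ t) (hm : 2 ^ m ≤ t) : t ^ (m + 1) ≤ 3 ^ (t - 1) := by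
  by_cases h : t < 64
  · have hm6 : m < 6 := by
      by_contra h6
      have : 2 ^ 6 ≤ 2 ^ m := Nat.pow_le_pow_right (by norm_num) (by omega)
      omega
    have : ∀ t < 64, ∀ m < 6, 9 ≤ t → 2 ^ m ≤ t → t ^ (m + 1) ≤ 3 ^ (t - 1) := by decide +kernel
    exact this t h m hm6 h9 hm
  · have h1 : 2 ^ Nat.log 2 t ≤ t := Nat.pow_log_le_self 2 (by omega)
    have h2 : t < 2 ^ (Nat.log 2 t + 1) := Nat.lt_pow_succ_log_self (by norm_num) t
    have h3 : m ≤ Nat.log 2 t := Nat.le_log_of_pow_le (by norm_num) hm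
    have h4 : 6 ≤ Nat.log 2 t := Nat.le_log_of_pow_le (by norm_num) (by omega)
    have h5 := sq_lt _ h4
    generalize Nat.log 2 t = k at h1 h2 h3 h4 h5
    calc t ^ (m + 1) ≤ t ^ (k + 1) := Nat.pow_le_pow_right (by omega) (by omega)
      _ ≤ (2 ^ (k + 1)) ^ (k + 1) := Nat.pow_le_pow_left h2.le _
      _ = 2 ^ ((k + 1) * (k + 1)) := by rw [← pow_mul]
      _ ≤ 2 ^ (t - 1) := Nat.pow_le_pow_right (by norm_num) (by omega)
      _ ≤ 3 ^ (t - 1) := Nat.pow_le_pow_left (by norm_num) _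

theorem aff_le {p : ℕ} (hp : 2 ≤ p) (m : ℕ) :
    p ^ m * ∏ i : Fin m, (p ^ m - p ^ (i : ℕ)) ≤ 3 ^ (p ^ m - 1) := by
  have h2 : 2 ^ m ≤ p ^ m := Nat.pow_le_pow_left hp m
  by_cases h9 : 9 ≤ p ^ m
  · refine le_trans ?_ (pow_le h9 h2)
    rw [pow_succ']
    refine Nat.mul_le_mul_left _ ?_
    calc _ ≤ ∏ _i : Fin m, p ^ m := Finset.prod_le_prod' fun i _ => Nat.sub_le _ _
      _ = _ := by simp
  · have hm : m < 4 := by
      by_contra h4
      have : 2 ^ 4 ≤ 2 ^ m := Nat.pow_le_pow_right (by norm_num) (by omega)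
      omega
    interval_cases m
    · simp
    · have : p < 9 := by simpa using h9
      interval_cases p <;> decide
    · have : p < 3 := by nlinarith
      interval_cases p; decide
    · have : p < 3 := by
        by_contra h3
        have : 3 ^ 3 ≤ p ^ 3 := Nat.pow_le_pow_left (by omega) 3
        omega
      interval_cases p; decide

/-- the affine case -/
theorem affine {X Ω : Type*} [Group X] [Finite X] [Finite Ω] (f : X →* Equiv.Perm Ω)
    (hf : Function.Injective f) (N : Subgroup X) [N.Normal] (hc : IsMulCommutative N) {p : ℕ} (hp : p.Prime)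
    (he : ∀ x ∈ N, x ^ p = 1) (hP : IsPGroup p N) (w : Ω) (ht : ∀ a, ∃ n ∈ N, f n w = a) :
    KB (3 ^ (Nat.card Ω - 1)) X := by
  haveI := Fact.mk hp
  have free : ∀ c ∈ centralizer (N : Set X), f c w = w → c = 1 := fun c hc e => hf (by
    rw [map_one]
    ext a
    obtain ⟨n, hn, rfl⟩ := ht a
    rw [← Equiv.Perm.mul_apply, ← map_mul, ← hc n hn, map_mul, Equiv.Perm.mul_apply, e]
    rfl)
  have hle : N ≤ centralizer (N : Set X) := fun x hx y hy =>
    congrArg Subtype.val (hc.is_comm.comm (⟨y, hy⟩ : N) ⟨x, hx⟩)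
  have inj : ∀ a ∈ centralizer (N : Set X), ∀ b ∈ centralizer (N : Set X), f a w = f b w → a = b :=
    fun a ha b hb e => (inv_mul_eq_one.1 (free _ (mul_mem (inv_mem ha) hb) (by
      rw [map_mul, Equiv.Perm.mul_apply, ← e, ← Equiv.Perm.mul_apply, ← map_mul, inv_mul_cancel, map_one]
      rfl)))
  have hC : centralizer (N : Set X) = N := le_antisymm (fun c hc => by
    obtain ⟨n, hn, e⟩ := ht (f c w)
    exact inj n (hle hn) c hc e ▸ hn) hle
  have hN : Nat.card N = Nat.card Ω := Nat.card_congr (Equiv.ofBijective (fun n : N => f n w)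
    ⟨fun a b e => Subtype.ext (inj _ (hle a.2) _ (hle b.2) e), fun a => (ht a).elim fun n h => ⟨⟨n, h.1⟩, h.2⟩⟩)
  obtain ⟨m, hm⟩ := hP.exists_card_eq
  obtain ⟨e⟩ := H23.nonempty_mulAut_equiv_GL hc (fun x => Subtype.ext (he x x.2)) hm
  have h1 := index_centralizer_dvd N
  rw [hC, Nat.card_congr e.toEquiv] at h1
  have h2 := Nat.le_of_dvd Nat.card_pos h1
  rw [card_GL_zmod] at h2
  refine kb_of_card_le ?_
  rw [← hN, ← N.card_mul_index, hm]
  exact (Nat.mul_le_mul_left _ h2).trans (aff_le hp.two_le m)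

theorem aux (t : ℕ) : ∀ (X : Type u) (Ω : Type v) [Group X] [Finite X] [Finite Ω], Nat.card Ω = t →
    Group.IsSolvable X → ∀ f : X →* Equiv.Perm Ω, Function.Injective f → KB (3 ^ (t - 1)) X := by
  induction t using Nat.strong_induction_on with
  | _ t ih =>
  intro X Ω _ _ _ ht hs f hf
  classical
  have ih' : ∀ (Y : Type u) (Ω' : Type v) [Group Y] [Finite Y] [Finite Ω'], Nat.card Ω' < t →
      Group.IsSolvable Y → ∀ g : Y →* Equiv.Perm Ω', KB (3 ^ (Nat.card Ω' - 1)) (Y ⧸ g.ker) :=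
    fun Y Ω' _ _ _ hlt hY g => ih _ hlt _ _ rfl inferInstance _ (QuotientGroup.kerLift_injective g)
  rcases subsingleton_or_nontrivial X with hX | hX
  · exact kb_one.mono (Nat.one_le_pow _ _ (by norm_num))
  obtain ⟨N, hN, -, hc, p, hp, hpN, he, hP⟩ :=
    H3.exists_normal_elementary_le (⊤ : Subgroup X) top_ne_bot inferInstance
  haveI : N.Normal := hN.1
  obtain ⟨n0, hn0, w, hw⟩ : ∃ n ∈ N, ∃ w, f n w ≠ w := by
    by_contra h
    push Not at h
    have : N = ⊥ := eq_bot_iff.2 fun n hn => hf (by rw [map_one]; exact Equiv.ext (h n hn))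
    rw [this, card_bot] at hpN
    exact hp.one_lt.ne' (Nat.dvd_one.1 hpN)
  by_cases htr : ∀ a, ∃ n ∈ N, f n w = a
  · exact ht ▸ affine f hf N hc hp he hP w htr
  let r : Setoid Ω := ⟨fun a b => ∃ n ∈ N, f n a = b, fun a => ⟨1, one_mem _, by simp⟩,
    fun ⟨n, hn, e⟩ => ⟨n⁻¹, inv_mem hn, by simp [← e]⟩,
    fun ⟨n, hn, e⟩ ⟨m, hm, e'⟩ => ⟨m * n, mul_mem hm hn, by simp [e, e']⟩⟩
  letI : MulAction X (Quotient r) :=
    { smul := fun x => Quotient.map (f x) fun a b ⟨n, hn, e⟩ =>
        ⟨x * n * x⁻¹, Normal.conj_mem inferInstance n hn x, by simp [e]⟩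
      one_smul := fun q => Quotient.inductionOn q fun a => congrArg (Quotient.mk r) (by simp)
      mul_smul := fun x y q => Quotient.inductionOn q fun a => congrArg (Quotient.mk r) (by simp) }
  let g := MulAction.toPermHom X (Quotient r)
  have hg : ∀ k : g.ker, ∀ a, Quotient.mk r (f k a) = Quotient.mk r a := fun k a =>
    Equiv.congr_fun (MonoidHom.mem_ker.1 k.2) (Quotient.mk r a)
  letI := Fintype.ofFinite Ω
  letI := Fintype.ofFinite (Quotient r)
  have hs1 : Nat.card (Quotient r) < t := by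
    rw [← ht, Nat.card_eq_fintype_card, Nat.card_eq_fintype_card]
    exact Fintype.card_lt_of_surjective_not_injective _ Quotient.mk_surjective
      fun h => hw (h (Quotient.sound ⟨n0, hn0, rfl⟩ : Quotient.mk r w = Quotient.mk r (f n0 w))).symm
  let O : Quotient r → Type v := fun q => {a // Quotient.mk r a = q}
  let φ : ∀ q, g.ker →* Equiv.Perm (O q) := fun q =>
    { toFun := fun k => (f k).subtypePerm fun a => by rw [hg]
      map_one' := by ext a; simp
      map_mul' := fun a b => by ext c; simp }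
  push Not at htr
  obtain ⟨w', hw'⟩ := htr
  have hO : ∀ q, Nat.card (O q) < t := fun q => by
    rw [← ht, Nat.card_eq_fintype_card, Nat.card_eq_fintype_card]
    by_cases e : Quotient.mk r w = q
    · refine Fintype.card_subtype_lt (x := w') fun e' => ?_
      obtain ⟨n, hn, e2⟩ := Quotient.exact (e.trans e'.symm)
      exact hw' n hn e2
    · exact Fintype.card_subtype_lt (x := w) e
  have hO1 : ∀ q, 1 ≤ Nat.card (O q) := fun q =>
    haveI : Nonempty (O q) := ⟨⟨q.out, q.out_eq⟩⟩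
    Nat.card_pos
  have hsum : ∑ q, Nat.card (O q) = t := by
    rw [← ht, ← Nat.card_sigma]
    exact Nat.card_congr (Equiv.sigmaFiberEquiv (Quotient.mk r))
  have hK := (KB.finset Finset.univ (fun q => (φ q).ker) (fun q => 3 ^ (Nat.card (O q) - 1))
    (fun q _ => ih' _ _ (hO q) inferInstance (φ q)) ⊥ fun k hk => Subtype.ext (hf (by
      rw [OneMemClass.coe_one, map_one]
      ext a
      exact congrArg Subtype.val (Equiv.congr_fun (MonoidHom.mem_ker.1 (hk _ (Finset.mem_univ _)))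
        (⟨a, rfl⟩ : O (Quotient.mk r a)))))).of_quot_bot
  refine (KB.ext' g.ker hK (ih' _ _ hs1 hs g)).mono ?_
  rw [Finset.prod_pow_eq_pow_sum, ← pow_add]
  refine Nat.pow_le_pow_right (by norm_num) ?_
  have h1 : ∑ q, (Nat.card (O q) - 1) + Nat.card (Quotient r) = t := by
    rw [← hsum, Nat.card_eq_fintype_card (α := Quotient r), ← Finset.card_univ, Finset.card_eq_sum_ones,
      ← Finset.sum_add_distrib]
    exact Finset.sum_congr rfl fun q _ => Nat.sub_add_cancel (hO1 q)
  haveI : Nonempty (Quotient r) := ⟨Quotient.mk r w⟩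
  have h2 : 0 < Nat.card (Quotient r) := Nat.card_pos
  omega

end Perm

/-- solvable permutation groups of degree `t` -/
theorem perm {X Ω : Type*} [Group X] [Finite X] [Finite Ω] (hs : Group.IsSolvable X)
    (f : X →* Equiv.Perm Ω) (hf : Function.Injective f) : KB (3 ^ (Nat.card Ω - 1)) X :=
  Perm.aux _ X Ω rfl hs f hf

end H81.KR
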