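import Mathlib
import Cfsg.Agent.Base
import Cfsg.Agent.Lib.KR.Defs

/-! Weight spaces of abelian normal subgroups, unipotent elements. -/

set_option autoImplicit false
set_option linter.unusedSectionVars false

namespace H81.KR

open Subgroup Cfsg
open scoped commutatorElement

universe u

variable {k V G : Type*} [Field k] [AddCommGroup V] [Module k V] [FiniteDimensional k V] [Group G]
  [Finite G] {ρ : Representation k G V}

/-- weight space of a subgroup -/
def wt (ρ : Representation k G V) (A : Subgroup G) (l : A → k) : Submodule k V :=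
  ⨅ a : A, Module.End.eigenspace (ρ a) (l a)

theorem mem_wt {A : Subgroup G} {l : A → k} {v : V} :
    v ∈ wt ρ A l ↔ ∀ a : A, ρ a v = l a • v := by
  simp [wt, Submodule.mem_iInf, Module.End.mem_eigenspace_iff]

theorem map_mem_wt {A : Subgroup G} [hA : A.Normal] {l : A → k} {v : V} (hv : v ∈ wt ρ A l)
    (g : G) : ρ g v ∈ wt ρ A fun a => l ⟨g⁻¹ * a * g, hA.conj_mem' a a.2 g⟩ :=
  mem_wt.2 fun a => by
    rw [← map_smul, ← mem_wt.1 hv, ← Module.End.mul_apply, ← Module.End.mul_apply, ← map_mul,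
      ← map_mul]
    simp [mul_assoc]

namespace Wt

theorem indep {ι M : Type*} [AddCommGroup M] [Module k M] (f : ι → Module.End k M)
    (h : ∀ i j, Commute (f i) (f j)) :
    iSupIndep fun l : ι → k => ⨅ i, (f i).eigenspace (l i) :=
  (Module.End.independent_iInf_maxGenEigenspace_of_forall_mapsTo f fun i j φ =>
    Module.End.mapsTo_maxGenEigenspace_of_comm (h j i) φ).mono fun l =>
      iInf_mono fun i => Module.End.eigenspace_le_maxGenEigenspace

theorem exists_wt [IsAlgClosed k] [Nontrivial V] {A : Subgroup G}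
    (hA : ∀ a ∈ A, ∀ b ∈ A, a * b = b * a) : ∃ l, wt ρ A l ≠ ⊥ := by
  obtain ⟨W, ⟨w1, w2⟩, hm⟩ := wellFounded_lt.has_min
    {W : Submodule k V | W ≠ ⊥ ∧ ∀ a : A, ∀ w ∈ W, ρ a w ∈ W} ⟨⊤, top_ne_bot, fun _ _ _ => trivial⟩
  haveI := Submodule.nontrivial_iff_ne_bot.2 w1
  have key : ∀ a : A, ∃ c, W ≤ Module.End.eigenspace (ρ a) c := fun a => by
    obtain ⟨c, hc⟩ := Module.End.exists_eigenvalue ((ρ a).restrict (w2 a) : Module.End k W)
    obtain ⟨v, hv⟩ := hc.exists_hasEigenvector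
    refine ⟨c, ?_⟩
    by_contra e
    refine hm (W ⊓ Module.End.eigenspace (ρ a) c) ⟨(Submodule.ne_bot_iff _).2 ⟨v, ⟨v.2,
      Module.End.mem_eigenspace_iff.2 (congrArg Subtype.val hv.apply_eq_smul)⟩,
      fun h => hv.2 (Subtype.ext h)⟩, fun b w hw => ⟨w2 b w hw.1, ?_⟩⟩
      (lt_of_le_not_ge inf_le_left fun h => e (h.trans inf_le_right))
    have := Module.End.mem_eigenspace_iff.1 hw.2
    refine Module.End.mem_eigenspace_iff.2 ?_
    rw [← map_smul, ← this, ← Module.End.mul_apply, ← Module.End.mul_apply, ← map_mul, ← map_mul,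
      hA a a.2 b b.2]
  choose l hl using key
  exact ⟨l, fun e => w1 (eq_bot_iff.2 ((le_iInf hl).trans e.le))⟩

theorem nil_pow {R : Type*} [Ring R] {x : R} (h : IsNilpotent (x - 1)) (m : ℕ) :
    IsNilpotent (x ^ m - 1) := by
  rw [← mul_geom_sum]
  exact (Commute.sum_right _ _ _ fun i _ =>
    ((Commute.refl x).sub_left (Commute.one_left x)).pow_right i).isNilpotent_mul_right h

theorem eq_one_of_unip (hf : Function.Injective ρ) {g : G} (h : IsNilpotent (ρ g - 1)) {m : ℕ}
    (hm : (m : k) ≠ 0) (e : g ^ m = 1) : g = 1 := by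
  have h1 : IsNilpotent (∑ i ∈ Finset.range m, (ρ g ^ i - 1)) :=
    Commute.isNilpotent_sum (fun i _ => nil_pow h i) fun i j _ _ =>
      (((Commute.refl _).pow_pow i j).sub_right (Commute.one_right _)).sub_left (Commute.one_left _)
  have h2 : IsUnit (m : Module.End k V) := by
    simpa using (IsUnit.mk0 _ hm).map (algebraMap k (Module.End k V))
  have h3 := h1.isUnit_add_left_of_commute h2 (Nat.cast_commute m _).symm
  have h4 := mul_geom_sum (ρ g) m
  rw [Finset.sum_sub_distrib, Finset.sum_const, Finset.card_range, nsmul_one,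
    add_sub_cancel] at h3
  rw [← map_pow, e, map_one, sub_self, h3.mul_left_eq_zero, sub_eq_zero] at h4
  exact hf (h4.trans (map_one ρ).symm)

theorem exists_scalar [IsAlgClosed k] [Nontrivial V] (hi : IrrRep ρ) (hf : Function.Injective ρ) :
    ∃ l : center G →* k, Function.Injective l ∧ ∀ (z : center G) (v : V), ρ z v = l z • v := by
  obtain ⟨l, hl⟩ := exists_wt (ρ := ρ) (A := center G) fun a _ b hb => mem_center_iff.1 hb a
  have h1 := (hi _ fun g w hw => mem_wt.2 fun z => by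
    rw [← map_smul, ← mem_wt.1 hw, ← Module.End.mul_apply, ← Module.End.mul_apply, ← map_mul,
      ← map_mul, mem_center_iff.1 z.2]).resolve_left hl
  have h2 : ∀ (z : center G) (v : V), ρ z v = l z • v :=
    fun z v => mem_wt.1 (h1.ge (Submodule.mem_top (x := v))) z
  obtain ⟨v, hv⟩ := exists_ne (0 : V)
  refine ⟨⟨⟨l, smul_left_injective k hv ?_⟩, fun a b => smul_left_injective k hv ?_⟩,
    fun a b e => Subtype.ext (hf (LinearMap.ext fun w => by
      rw [h2, h2]; exact congrArg (· • w) e)), h2⟩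
  · simp [← h2]
  · simp only [← h2, mul_smul]
    simp

end Wt

open Wt

theorem wt_indep {A : Subgroup G} (hA : ∀ a ∈ A, ∀ b ∈ A, a * b = b * a) :
    iSupIndep (wt ρ A) :=
  indep (fun a : A => ρ a) fun a b => Commute.map (hA a a.2 b b.2) ρ

theorem IrrRep.iSup_wt [IsAlgClosed k] (hi : IrrRep ρ) {A : Subgroup G} [A.Normal]
    (hA : ∀ a ∈ A, ∀ b ∈ A, a * b = b * a) : ⨆ l, wt ρ A l = ⊤ := by
  rcases subsingleton_or_nontrivial V with h | h
  · exact Subsingleton.elim _ _
  obtain ⟨l, hl⟩ := exists_wt (ρ := ρ) hA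
  refine (hi _ fun g => ?_).resolve_left fun e => hl (eq_bot_iff.2 ((le_iSup _ l).trans e.le))
  exact iSup_le (a := (⨆ l, wt ρ A l).comap (ρ g)) fun l w hw =>
    Submodule.mem_iSup_of_mem _ (map_mem_wt hw g)

theorem IrrRep.pCore_eq_bot [IsAlgClosed k] (hi : IrrRep ρ) (hf : Function.Injective ρ) (p : ℕ)
    (hp : p.Prime) (hk : CharP k p) : pCore p G = ⊥ := by
  haveI := Fact.mk hp
  by_contra h
  have hP : IsPGroup p (pCore p G) := H1.isPGroup_pCore
  obtain ⟨A, a1, a2, a3, -⟩ := H3.exists_normal_elementary_le _ h (H1.isSolvable_of_isPGroup hP)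
  haveI := a1.normal
  refine a1.ne_bot (eq_bot_iff.2 fun a ha => hf (LinearMap.ext fun v => ?_))
  obtain ⟨j, hj⟩ := hP ⟨a, a2 ha⟩
  have h1 : ⨆ l, wt ρ A l ≤ LinearMap.eqLocus (ρ a) (ρ 1) := iSup_le fun l w hw => by
    have e1 := mem_wt.1 hw ⟨a, ha⟩
    have e2 : ∀ i : ℕ, ρ (a ^ i) w = l ⟨a, ha⟩ ^ i • w := fun i => by
      induction i with
      | zero => simp
      | succ i ih => rw [pow_succ, map_mul, Module.End.mul_apply, e1, map_smul, ih, smul_smul,
          pow_succ']
    have e3 := e2 (p ^ j)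
    rw [show a ^ p ^ j = 1 from congrArg Subtype.val hj, map_one, Module.End.one_apply,
      ← sub_eq_zero] at e3
    have e4 : (1 - l ⟨a, ha⟩) ^ p ^ j • w = 0 := by
      rw [sub_pow_char_pow, one_pow, sub_smul, one_smul, e3]
    rw [LinearMap.mem_eqLocus, e1, map_one, Module.End.one_apply]
    rcases smul_eq_zero.1 e4 with e | e
    · rw [← sub_eq_zero.1 (pow_eq_zero_iff (Nat.pow_pos hp.pos).ne' |>.1 e), one_smul]
    · rw [e, smul_zero]
  exact h1 ((hi.iSup_wt fun a ha b hb =>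
    congrArg Subtype.val (a3.is_comm.comm (⟨a, ha⟩ : A) ⟨b, hb⟩)).ge Submodule.mem_top)

theorem UN.le_fitting (hf : Function.Injective ρ)
    (hO : ∀ p : ℕ, p.Prime → CharP k p → pCore p G = ⊥) {M : Subgroup G} (hM : M.IsSubnormal)
    (h : UN ρ M) : M ≤ fittingSubgroup G := by
  obtain ⟨c, hc⟩ := h
  refine H1.le_fitting_of_isSubnormal hM ((isNilpotent_iff_lowerCentralSeries M).2 ⟨c, eq_bot_iff.2 ?_⟩)
  obtain ⟨p, hk⟩ := CharP.exists k
  rcases CharP.char_is_prime_or_zero k p with hp | rfl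
  · refine (H1.le_pCoreOf (p := p) (lowerCentralSeries_le_self M c)
      (M.self_le_normalizer_lowerCentralSeries c) fun g => ?_).trans
      ((H1.map_subtype_pCore_le_of_isSubnormal hM).trans (hO p hp hk).le)
    obtain ⟨a, m, hm, e⟩ := Nat.exists_eq_pow_mul_and_not_dvd (orderOf_pos (g : G)).ne' p hp.ne_one
    refine ⟨a, Subtype.ext (eq_one_of_unip hf (m := m) ?_ (by rwa [Ne, CharP.cast_eq_zero_iff k p])
      (by rw [coe_pow, ← pow_mul, ← e, pow_orderOf_eq_one]))⟩
    rw [coe_pow, map_pow]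
    exact nil_pow (hc g g.2) _
  · haveI := CharP.charP_to_charZero k
    exact fun g hg => eq_one_of_unip hf (hc g hg) (Nat.cast_ne_zero.2 (orderOf_pos g).ne')
      (pow_orderOf_eq_one g)

theorem IrrRep.isCyclic_center [IsAlgClosed k] (hi : IrrRep ρ) (hf : Function.Injective ρ) :
    IsCyclic (center G) := by
  rcases subsingleton_or_nontrivial V with h | h
  · haveI := hf.subsingleton
    infer_instance
  obtain ⟨l, hl, -⟩ := exists_scalar hi hf
  exact isCyclic_of_injective_ringHom l hl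

theorem IrrRep.relIndex_le_sq [IsAlgClosed k] [Nontrivial V] (hi : IrrRep ρ)
    (hf : Function.Injective ρ) {N : Subgroup G} (h1 : ⁅N, N⁆ ≤ center G)
    (h2 : N ⊓ centralizer (N : Set G) ≤ center G) :
    (center G).relIndex N ≤ Module.finrank k V ^ 2 := by
  obtain ⟨l, hl, h3⟩ := exists_scalar hi hf
  have h4 : ∀ z : center G, ρ z = l z • 1 := fun z => LinearMap.ext (h3 z)
  have h5 : ∀ x y : N, ⁅(x : G), (y : G)⁆ ∈ center G :=
    fun x y => h1 (commutator_mem_commutator x.2 y.2)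
  let f : N → Module.End k (Module.End k V) := fun n =>
    LinearMap.mulLeftRight k (ρ n, ρ (n : G)⁻¹)
  have hc : ∀ x y, Commute (f x) (f y) := fun x y => LinearMap.ext fun T => by
    have e1 : ρ x * ρ y = l ⟨_, h5 x y⟩ • (ρ y * ρ x) := by
      rw [← one_mul (ρ y * ρ x), ← smul_mul_assoc, ← h4, ← map_mul, ← map_mul, ← map_mul]
      simp [mul_assoc, commutatorElement_def]
    have e2 : ρ (x : G)⁻¹ * ρ (y : G)⁻¹ = l ⟨_, h5 x y⟩ • (ρ (y : G)⁻¹ * ρ (x : G)⁻¹) := by
      rw [← mul_one (ρ (y : G)⁻¹ * _), ← mul_smul_comm, ← h4, ← map_mul, ← map_mul, ← map_mul]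
      simp [mul_assoc, commutatorElement_def]
    calc ρ x * (ρ y * T * ρ (y : G)⁻¹) * ρ (x : G)⁻¹
        = ρ x * ρ y * T * (ρ (y : G)⁻¹ * ρ (x : G)⁻¹) := by simp only [mul_assoc]
      _ = ρ y * ρ x * T * (ρ (x : G)⁻¹ * ρ (y : G)⁻¹) := by
        rw [e1, e2, smul_mul_assoc, smul_mul_assoc, mul_smul_comm]
      _ = ρ y * (ρ x * T * ρ (x : G)⁻¹) * ρ (y : G)⁻¹ := by simp only [mul_assoc]
  let w : N ⧸ (center G).subgroupOf N → N → k := fun q n => l ⟨_, h5 n q.out⟩
  have hw : Function.Injective w := fun q r e => by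
    rw [← q.out_eq', ← r.out_eq', QuotientGroup.eq]
    refine h2 ⟨(q.out⁻¹ * r.out).2, fun n hn => ?_⟩
    have := congrArg Subtype.val (hl (congrFun e ⟨n⁻¹, inv_mem hn⟩))
    simp only [commutatorElement_def, inv_inv] at this
    calc n * ((q.out : G)⁻¹ * r.out)
        = (q.out : G)⁻¹ * n * (n⁻¹ * q.out * n * (q.out : G)⁻¹) * r.out := by group
      _ = (q.out : G)⁻¹ * r.out * n := by rw [this]; group
  haveI := Fintype.ofFinite (N ⧸ (center G).subgroupOf N)
  have := (((indep f hc).comp hw).linearIndependent _ (v := fun q => ρ (q.out : N)) (fun q => by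
    refine (Submodule.mem_iInf _).2 fun n => Module.End.mem_eigenspace_iff.2 ?_
    change ρ n * ρ _ * ρ _ = _
    rw [← one_mul (ρ (q.out : N)), ← smul_mul_assoc, ← h4, one_mul, ← map_mul, ← map_mul, ← map_mul]
    simp [commutatorElement_def]) fun q =>
        ((Group.isUnit _).map ρ).ne_zero).fintype_card_le_finrank
  rwa [Module.finrank_linearMap, ← sq, ← Nat.card_eq_fintype_card] at this

end H81.KR
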