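import Mathlib
import Cfsg.Agent.Base
import Cfsg.Agent.Lib.KR.Wt
import Cfsg.Agent.Lib.KR.Perm

/-! The imprimitive case: a noncentral abelian normal subgroup. -/

set_option autoImplicit false
set_option linter.unusedSectionVars false

namespace H81.KR

open Subgroup Cfsg

universe u

namespace CI

variable {k V G : Type*} [Field k] [AddCommGroup V] [Module k V] [FiniteDimensional k V] [Group G]
  [Finite G]

theorem pow_apply {f : Module.End k V} {W : Submodule k V} (h : W ≤ W.comap f) (j : ℕ) (w : W) :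
    ((f - 1) ^ j) w = ((((f.restrict h : Module.End k W) - 1) ^ j) w : W) := by
  induction j generalizing w with
  | zero => simp
  | succ j ih =>
    rw [pow_succ, pow_succ, Module.End.mul_apply, Module.End.mul_apply, ← ih]
    simp

theorem sum_finrank_le {ι : Type*} [Fintype ι] {p : ι → Submodule k V} (h : iSupIndep p) :
    ∑ i, Module.finrank k (p i) ≤ Module.finrank k V := by
  classical
  rw [← Module.finrank_directSum]
  exact LinearMap.finrank_le_finrank_of_injective (f := DirectSum.coeLinearMap p)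
    h.dfinsupp_lsum_injective

/-- the weights that occur -/
abbrev Lw (ρ : Representation k G V) (A : Subgroup G) := {l : A → k // wt ρ A l ≠ ⊥}

instance act (ρ : Representation k G V) (A : Subgroup G) [hA : A.Normal] : MulAction G (Lw ρ A) where
  smul g l := ⟨fun a => l.1 ⟨g⁻¹ * a * g, hA.conj_mem' a a.2 g⟩, by
    obtain ⟨v, hv, h0⟩ := (Submodule.ne_bot_iff _).1 l.2
    refine (Submodule.ne_bot_iff _).2 ⟨_, map_mem_wt hv g, fun e => h0 ?_⟩
    have := congrArg (ρ g⁻¹) e
    rwa [← Module.End.mul_apply, ← map_mul, inv_mul_cancel, map_one, map_zero] at this⟩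
  one_smul l := Subtype.ext (funext fun a => congrArg l.1 (Subtype.ext (by simp)))
  mul_smul g h l := Subtype.ext (funext fun a => congrArg l.1 (Subtype.ext (by simp [mul_assoc])))

theorem map_mem {ρ : Representation k G V} {A : Subgroup G} [A.Normal] {l : Lw ρ A} {g : G}
    (h : g • l = l) {v : V} (hv : v ∈ wt ρ A l.1) : ρ g v ∈ wt ρ A l.1 := by
  rw [← h]
  exact map_mem_wt hv g

theorem le_of_lw {ρ : Representation k G V} {A : Subgroup G} (h : ⨆ l, wt ρ A l = ⊤)
    {W : Submodule k V} (hW : ∀ l : Lw ρ A, wt ρ A l.1 ≤ W) (v : V) : v ∈ W := by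
  refine (h.ge.trans (iSup_le fun l => ?_)) Submodule.mem_top
  by_cases e : wt ρ A l = ⊥
  · exact e.le.trans bot_le
  · exact hW ⟨l, e⟩

end CI

open CI

/-- the imprimitive case -/
theorem caseI {k : Type} [Field k] [IsAlgClosed k] {V : Type} [AddCommGroup V] [Module k V]
    [FiniteDimensional k V] {G : Type u} [Group G] [Finite G] (hs : Group.IsSolvable G)
    {ρ : Representation k G V} (hi : IrrRep ρ) (hf : Function.Injective ρ)
    (ih : ∀ m < Module.finrank k V, BS.{u} m) {A : Subgroup G} [A.Normal]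
    (hA : ∀ a ∈ A, ∀ b ∈ A, a * b = b * a) (hZ : ¬ A ≤ center G) :
    KB (3 ^ (Module.finrank k V - 1)) (G ⧸ fittingSubgroup G) := by
  have h1 := wt_indep (ρ := ρ) hA
  have h2 := hi.iSup_wt hA
  haveI := h1.fintypeNeBotOfFiniteDimensional
  have h3 : iSupIndep fun l : Lw ρ A => wt ρ A l.1 := h1.comp Subtype.val_injective
  haveI : Nontrivial (Lw ρ A) := by
    by_contra e
    haveI := not_nontrivial_iff_subsingleton.1 e
    refine hZ fun a ha => mem_center_iff.2 fun g => hf (LinearMap.ext fun v => ?_)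
    refine le_of_lw h2 (W := LinearMap.eqLocus (ρ (g * a)) (ρ (a * g))) (fun l w hw => ?_) v
    rw [LinearMap.mem_eqLocus, map_mul, map_mul, Module.End.mul_apply, Module.End.mul_apply,
      mem_wt.1 hw ⟨a, ha⟩, mem_wt.1 (map_mem (Subsingleton.elim _ _) hw) ⟨a, ha⟩, map_smul]
  let f := MulAction.toPermHom G (Lw ρ A)
  have k1 : KB (3 ^ (Nat.card (Lw ρ A) - 1)) (G ⧸ f.ker) :=
    (perm (Group.isSolvable_of_surjective f.rangeRestrict_surjective) f.range.subtype
      (Subgroup.subtype_injective _)).quot_of_ker_le f.rangeRestrict f.ker_rangeRestrict.le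
  let τ : Representation k f.ker V := ρ.comp f.ker.subtype
  have h4 : ∀ (l : Lw ρ A) (g : f.ker), wt ρ A l.1 ≤ (wt ρ A l.1).comap (τ g) :=
    fun l g _ hv => map_mem (Equiv.congr_fun g.2 l) hv
  have h5 : ∀ l : Lw ρ A, Module.finrank k (wt ρ A l.1) < Module.finrank k V := fun l => by
    obtain ⟨l', hl⟩ := exists_ne l
    exact Submodule.finrank_lt fun e => l'.2 (disjoint_top.1 (e ▸ h3.pairwiseDisjoint hl))
  choose M hM c hc using fun l : Lw ρ A => ih _ (h5 l) k _ rfl f.ker inferInstance
    (τ.subrepresentation _ (h4 l))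
  choose c hc' using c
  have h6 : ⨅ l, M l ≤ fittingSubgroup f.ker := by
    refine UN.le_fitting (ρ := τ) (hf.comp f.ker.subtype_injective) (fun p hp hk => ?_)
      (normal_iInf_normal hM).isSubnormal ⟨Finset.univ.sup c, fun g hg => ?_⟩
    · rw [← map_eq_bot_iff_of_injective _ f.ker.subtype_injective, eq_bot_iff,
        ← hi.pCore_eq_bot hf p hp hk]
      exact H1.map_subtype_pCore_le _
    · choose j hj using fun l => hc' l g (lowerCentralSeries_mono _ (iInf_le M l)
        (Subgroup.lowerCentralSeries_antitone _ (Finset.le_sup (Finset.mem_univ l)) hg))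
      refine ⟨Finset.univ.sup j, LinearMap.ext fun v => le_of_lw h2 (W := LinearMap.ker _)
        (fun l w hw => ?_) v⟩
      rw [LinearMap.mem_ker, pow_apply (h4 l g) _ ⟨w, hw⟩]
      exact congrArg Subtype.val (LinearMap.congr_fun
        (pow_eq_zero_of_le (Finset.le_sup (Finset.mem_univ l)) (hj l)) ⟨w, hw⟩)
  have k2 := KB.finset Finset.univ M _ (fun l _ => hc l) ((fittingSubgroup G).subgroupOf f.ker)
    fun x hx => H1.map_subtype_fitting_le f.ker (mem_map_of_mem _ (h6 (mem_iInf.2 fun l =>
      hx l (Finset.mem_univ l))))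
  refine (KB.tower _ _ k2 k1).mono ?_
  rw [Finset.prod_pow_eq_pow_sum, ← pow_add]
  refine Nat.pow_le_pow_right (by norm_num) ?_
  have h7 := sum_finrank_le h3
  have h8 : ∑ l : Lw ρ A, Module.finrank k (wt ρ A l.1) =
      ∑ l : Lw ρ A, (Module.finrank k (wt ρ A l.1) - 1) + Nat.card (Lw ρ A) := by
    rw [Nat.card_eq_fintype_card, ← Finset.card_univ, Finset.card_eq_sum_ones,
      ← Finset.sum_add_distrib]
    exact Finset.sum_congr rfl fun l _ => (Nat.sub_add_cancel (Nat.pos_of_ne_zero fun e =>
      l.2 (Submodule.finrank_eq_zero.1 e))).symm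
  have h9 : 0 < Nat.card (Lw ρ A) := Nat.card_pos
  omega

end H81.KR
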