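import Mathlib
import Cfsg.Agent.Base
import Cfsg.Agent.Lib.KR.Defs

set_option autoImplicit false
set_option linter.unusedSectionVars false
set_option linter.style.haveILetI false

namespace H81.KR

open Subgroup Cfsg

universe u

variable {X U : Type*} [Group X] [Group U] [Finite X] [Finite U] {φ : X →* MulAut U}

namespace E2

theorem cent_le {p : ℕ} [Fact p.Prime] (A : GL (Fin 2) (ZMod p)) :
    Nat.card (centralizer ({A} : Set (GL (Fin 2) (ZMod p)))) ≤
      (Finset.univ.filter fun q : ZMod p × ZMod p × ZMod p × ZMod p =>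
        q.1 * q.2.2.2 ≠ q.2.1 * q.2.2.1 ∧ A 0 1 * q.2.2.1 = q.2.1 * A 1 0 ∧
        A 0 0 * q.2.1 + A 0 1 * q.2.2.2 = q.1 * A 0 1 + q.2.1 * A 1 1 ∧
        A 1 0 * q.1 + A 1 1 * q.2.2.1 = q.2.2.1 * A 0 0 + q.2.2.2 * A 1 0).card := by
  rw [← Fintype.card_coe, ← Nat.card_eq_fintype_card]
  refine Nat.card_le_card_of_injective (fun B => ⟨(B.1 0 0, B.1 0 1, B.1 1 0, B.1 1 1), ?_⟩) fun B C e => ?_
  · have h := congrArg Units.val (mem_centralizer_singleton_iff.1 B.2)
    have hd := B.1.det_ne_zero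
    rw [Matrix.det_fin_two, sub_ne_zero] at hd
    have h00 := congrFun (congrFun h 0) 0
    have h01 := congrFun (congrFun h 0) 1
    have h10 := congrFun (congrFun h 1) 0
    simp only [Units.val_mul, Matrix.mul_apply, Fin.sum_univ_two] at h00 h01 h10
    refine Finset.mem_filter.2 ⟨Finset.mem_univ _, hd, ?_, h01.symm, h10.symm⟩
    linear_combination -h00
  · simp only [Subtype.mk.injEq, Prod.mk.injEq] at e
    refine Subtype.ext (Units.ext ?_)
    ext i j
    fin_cases i <;> fin_cases j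
    exacts [e.1, e.2.1, e.2.2.1, e.2.2.2]

theorem ext2 {p : ℕ} [Fact p.Prime] {A B : GL (Fin 2) (ZMod p)}
    (e : A 0 0 = B 0 0 ∧ A 0 1 = B 0 1 ∧ A 1 0 = B 1 0 ∧ A 1 1 = B 1 1) : A = B := by
  refine Units.ext ?_
  ext i j
  fin_cases i <;> fin_cases j
  exacts [e.1, e.2.1, e.2.2.1, e.2.2.2]

theorem gl22 : KB 3 (GL (Fin 2) (ZMod 2)) := by
  refine kb_of_cent (a := 1) (c := 3) ⊥ (by simp) (by norm_num) fun A hA => (cent_le A).trans ?_
  have : ∀ a b c d : ZMod 2, ¬ (a = 1 ∧ b = 0 ∧ c = 0 ∧ d = 1) → a * d ≠ b * c →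
      (Finset.univ.filter fun q : ZMod 2 × ZMod 2 × ZMod 2 × ZMod 2 =>
        q.1 * q.2.2.2 ≠ q.2.1 * q.2.2.1 ∧ b * q.2.2.1 = q.2.1 * c ∧
        a * q.2.1 + b * q.2.2.2 = q.1 * b + q.2.1 * d ∧
        c * q.1 + d * q.2.2.1 = q.2.2.1 * a + q.2.2.2 * c).card ≤ 3 := by decide +kernel
  have hd := A.det_ne_zero
  rw [Matrix.det_fin_two, sub_ne_zero] at hd
  exact this _ _ _ _ (fun e => hA (mem_bot.2 (ext2 (by simpa using e)))) hd

theorem gl23 : KB 9 (GL (Fin 2) (ZMod 3)) := by
  refine kb_of_cent (a := 2) (c := 8) (zpowers (-1)) ?_ (by norm_num) fun A hA => (cent_le A).trans ?_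
  · rw [Nat.card_zpowers]
    exact orderOf_le_of_pow_eq_one (by norm_num) (by simp)
  have : ∀ a b c d : ZMod 3, ¬ (a = 1 ∧ b = 0 ∧ c = 0 ∧ d = 1) → ¬ (a = -1 ∧ b = 0 ∧ c = 0 ∧ d = -1) →
      a * d ≠ b * c →
      (Finset.univ.filter fun q : ZMod 3 × ZMod 3 × ZMod 3 × ZMod 3 =>
        q.1 * q.2.2.2 ≠ q.2.1 * q.2.2.1 ∧ b * q.2.2.1 = q.2.1 * c ∧
        a * q.2.1 + b * q.2.2.2 = q.1 * b + q.2.1 * d ∧
        c * q.1 + d * q.2.2.1 = q.2.2.1 * a + q.2.2.2 * c).card ≤ 8 := by decide +kernel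
  have hd := A.det_ne_zero
  rw [Matrix.det_fin_two, sub_ne_zero] at hd
  refine this _ _ _ _ (fun e => hA ?_) (fun e => hA ?_) hd
  · rw [show A = 1 from ext2 (by simpa using e)]
    exact one_mem _
  · rw [show A = -1 from ext2 (by simpa using e)]
    exact mem_zpowers _

theorem card_aut_prime {P : Type*} [Group P] [Finite P] {p : ℕ} (hp : p.Prime) (h : Nat.card P = p) :
    Nat.card (MulAut P) = p - 1 := by
  haveI := Fact.mk hp
  haveI := isCyclic_of_prime_card h
  rw [IsCyclic.card_mulAut, h, Nat.totient_prime hp]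

theorem caseA (h : Ir 2 4 φ) (h5 : 5 ∣ Nat.card (fittingSubgroup X)) (hX : Nat.card X ∣ 20160) :
    KB 27 X := by
  haveI : Fact (Nat.Prime 5) := ⟨by norm_num⟩
  set P := pCore 5 X with hPd
  have hP : IsPGroup 5 P := H1.isPGroup_pCore
  have hP1 : P ≠ ⊥ := pCore_ne_bot_of_dvd_fitting h5
  have cP : Nat.card P = 5 := by
    obtain ⟨k, hk⟩ := hP.exists_card_eq
    have h1 := (card_subgroup_dvd_card P).trans hX
    rw [hk] at h1 ⊢
    rcases k with _ | _ | k
    · exact absurd (card_eq_one.1 hk) hP1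
    · rfl
    · have : 25 ∣ 20160 := (Dvd.intro (5 ^ k) (by ring)).trans h1
      omega
  haveI := isCyclic_of_prime_card cP
  set C := centralizer (P : Set X)
  have hPC : P ≤ C := fun x hx y hy =>
    congrArg Subtype.val (IsCyclic.isMulCommutative.is_comm.comm (⟨y, hy⟩ : P) ⟨x, hx⟩)
  have iC : C.index ∣ 4 := (index_centralizer_dvd P).trans (card_aut_prime (by norm_num) cP).dvd
  have cC : Nat.card C ∣ 15 := by
    have := H2.card_modEq_one_of_fpf (φ.comp C.subtype) fun c hc u hu => by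
      have h1 := card_modEq_fix (φ := φ) hP (fix φ (zpowers (c : X))) fun x hx w hw =>
        map_mem_fix (centralizer_le_normalizer _ fun y hy => by
          obtain ⟨k, rfl⟩ := hy
          exact (Commute.zpow_right (c.2 x hx) k).symm) hw
      rw [h.fix_eq_bot hP1, inf_bot_eq, card_bot] at h1
      have h2 := card_subgroup_dvd_card (fix φ (zpowers (c : X)))
      have h3 : Nat.card (fix φ (zpowers (c : X))) ≠ 16 := fun e => hc (Subtype.ext (h.inj (by
        have := (card_eq_iff_eq_top _).1 (e.trans h.card.symm)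
        ext v
        simpa using mem_fix_zpowers.1 (this ▸ mem_top v))))
      rw [h.card] at h2
      have h4 : Nat.card (fix φ (zpowers (c : X))) = 1 := by
        have := Nat.le_of_dvd (by norm_num) h2
        generalize Nat.card (fix φ (zpowers (c : X))) = m at h1 h2 h3 this
        unfold Nat.ModEq at h1
        interval_cases m <;> omega
      exact mem_bot.1 (card_eq_one.1 h4 ▸ mem_fix_zpowers.2 hu)
    rw [h.card] at this
    exact (Nat.modEq_iff_dvd' (by norm_num)).1 this.symm
  refine (kb_of_cent (a := 15) (c := 12) C (Nat.le_of_dvd (by norm_num) cC) (by norm_num)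
    fun x hx => ?_).mono (by norm_num)
  set D := centralizer ({x} : Set X) ⊓ C
  have hD : P ⊓ D = ⊥ := by
    rcases (P ⊓ D).subgroupOf P |>.eq_bot_or_eq_top_of_prime_card (hp := ⟨by rw [cP]; norm_num⟩) with e | e
    · exact (subgroupOf_eq_bot.1 e).eq_bot_of_le inf_le_left
    · exact absurd (fun y hy => mem_centralizer_singleton_iff.1 ((subgroupOf_eq_top.1 e) hy).2.1) hx
  have h1 := H1.card_inf_mul_relIndex P D
  have h2 := H1.card_inf_mul_relIndex P C
  have h3 : P.relIndex D ≤ P.relIndex C := relIndex_le_of_le_right inf_le_right index_ne_zero_of_finite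
  rw [hD, card_bot] at h1
  rw [inf_of_le_left hPC, cP] at h2
  have h4 := Nat.le_of_dvd (by norm_num) cC
  have h5 := Nat.le_of_dvd (by norm_num) iC
  refine (H81.card_le_card_inf_mul_index _ C).trans ?_
  calc Nat.card D * C.index ≤ 3 * 4 := Nat.mul_le_mul (by omega) h5
    _ = 12 := rfl

/-- the stabiliser of an element of order 3 in the automorphism group of a group of order 9 -/
theorem stab_dvd {F : Type*} [Group F] [Finite F] (hF : Nat.card F = 9) {D : Subgroup F}
    (hD : Nat.card D = 3) (S : Subgroup (MulAut F)) (hS : ∀ α ∈ S, ∀ y ∈ D, α y = y) : Nat.card S ∣ 6 := by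
  letI : MulAction S {f : F // f ∉ D} :=
    { smul := fun α f => ⟨α.1 f, fun e => f.2 (α.1.injective (hS _ α.2 _ e) ▸ e)⟩
      one_smul := fun f => rfl
      mul_smul := fun _ _ f => rfl }
  have h1 := H2.card_dvd_of_free (A := S) (X := {f : F // f ∉ D}) fun α f e => by
    have e' : α.1 f = f := congrArg Subtype.val e
    let W : Subgroup F := α.1.toMonoidHom.eqLocus (MonoidHom.id F)
    have h1 : D < W := lt_of_le_of_ne (fun y hy => hS _ α.2 y hy) fun e => f.2 (e ▸ e')
    have h2 := card_subgroup_dvd_card W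
    have h3 : Nat.card D < Nat.card W := lt_of_not_ge fun e => h1.ne (eq_of_le_of_card_ge h1.le e)
    rw [hF] at h2
    have h4 : Nat.card W = 9 := by
      have := Nat.le_of_dvd (by norm_num) h2
      generalize Nat.card W = m at h2 h3 this
      interval_cases m <;> omega
    have h5 := (card_eq_iff_eq_top W).1 (h4.trans hF.symm)
    exact Subtype.ext (MulEquiv.ext fun y => (h5 ▸ mem_top y : y ∈ W))
  have h2 : Nat.card {f : F // f ∉ D} = 6 := by
    classical
    letI := Fintype.ofFinite F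
    rw [Nat.card_eq_fintype_card] at hF hD ⊢
    rw [Fintype.card_subtype_compl, hF]
    have : Fintype.card {f : F // f ∈ D} = 3 := hD
    omega
  exact h2 ▸ h1

theorem caseC (hs : Group.IsSolvable X) (h9 : Nat.card (fittingSubgroup X) = 9) (hX : Nat.card X ∣ 20160) :
    KB 27 X := by
  set F := fittingSubgroup X
  have hCF : centralizer (F : Set X) ≤ F := H1.centralizer_fitting_le
  have hc : IsMulCommutative F := IsPGroup.isMulCommutative_of_card_eq_prime_sq (p := 3) h9
  have hFC : F ≤ centralizer (F : Set X) := fun x hx y hy =>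
    congrArg Subtype.val (hc.is_comm.comm (⟨y, hy⟩ : F) ⟨x, hx⟩)
  have hA : Nat.card (MulAut F) ∣ 48 := by
    by_cases hcy : IsCyclic F
    · rw [IsCyclic.card_mulAut, h9]; decide
    · obtain ⟨e⟩ := H23.nonempty_mulAut_equiv_GL (p := 3) (n := 2) hc (fun w => by
        have h1 : orderOf w ∣ 9 := h9 ▸ orderOf_dvd_natCard w
        have h2 : orderOf w ≠ 9 := fun e => hcy (isCyclic_of_orderOf_eq_card w (e.trans h9.symm))
        refine orderOf_dvd_iff_pow_eq_one.1 ?_
        have := Nat.le_of_dvd (by norm_num) h1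
        generalize orderOf w = m at h1 h2 this
        interval_cases m <;> omega) h9
      rw [Nat.card_congr e.toEquiv, card_GL_zmod]
      decide
  have iF : F.index ∣ 16 := by
    have h1 := (index_fitting_dvd hs).trans hA
    have h2 := F.card_mul_index
    rw [h9] at h2
    rw [← h2] at hX
    refine Nat.Coprime.dvd_of_dvd_mul_left (m := 3) ?_ h1
    refine ((Nat.Prime.coprime_iff_not_dvd Nat.prime_three).2 fun ⟨k, hk⟩ => ?_).symm
    rw [hk] at hX
    have : 27 ∣ 20160 := (Dvd.intro k (by ring)).trans hX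
    omega
  refine (kb_of_cent (a := 9) (c := 16) F h9.le (by norm_num) fun x hx => ?_).mono (by norm_num)
  set Y := centralizer ({x} : Set X)
  have h1 : Nat.card (Y ⊓ F : Subgroup X) ∣ 9 := h9 ▸ card_dvd_of_le inf_le_right
  have h2 : Nat.card (Y ⊓ F : Subgroup X) ≠ 9 := fun e => hx (hCF fun y hy => by
    have := eq_of_le_of_card_ge (inf_le_right : Y ⊓ F ≤ F) (h9.trans e.symm).le
    exact mem_centralizer_singleton_iff.1 (this.ge hy).1)
  have h3 : Nat.card (Y ⊓ F : Subgroup X) = 1 ∨ Nat.card (Y ⊓ F : Subgroup X) = 3 := by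
    have := Nat.le_of_dvd (by norm_num) h1
    generalize Nat.card (Y ⊓ F : Subgroup X) = m at h1 h2 this
    interval_cases m <;> omega
  rcases h3 with h3 | h3
  · refine (H81.card_le_card_inf_mul_index _ F).trans ?_
    rw [h3, one_mul]
    exact Nat.le_of_dvd (by norm_num) iF
  · let D : Subgroup Y := F.subgroupOf Y
    have cD : Nat.card D = 3 := by
      rw [← h3, ← Nat.card_congr (subgroupOfEquivOfLe (inf_le_left : Y ⊓ F ≤ Y)).toEquiv, inf_comm,
        inf_subgroupOf_right]
    let S := centralizer (D : Set Y)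
    have iS : S.index ∣ 2 := (index_centralizer_dvd D).trans (card_aut_prime Nat.prime_three cD).dvd
    let ψ : S →* MulAut F := (MulAut.conjNormal (H := F)).comp (Y.subtype.comp S.subtype)
    have h4 : Nat.card ψ.range ∣ 6 := stab_dvd h9 (D := (Y ⊓ F).subgroupOf F)
      ((Nat.card_congr (subgroupOfEquivOfLe inf_le_right).toEquiv).trans h3) _ (by
        rintro _ ⟨s, rfl⟩ y hy
        refine Subtype.ext (mul_inv_eq_iff_eq_mul.2 ?_)
        exact (congrArg Subtype.val (s.2 ⟨y, hy.1⟩ y.2)).symm)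
    have hk : ψ.ker = F.comap (Y.subtype.comp S.subtype) := by
      ext s
      refine ⟨fun e => hCF fun y hy => ?_, fun e => MulEquiv.ext fun y => Subtype.ext ?_⟩
      · exact (mul_inv_eq_iff_eq_mul.1 (congrArg Subtype.val (MulEquiv.congr_fun e ⟨y, hy⟩))).symm
      · exact mul_inv_eq_iff_eq_mul.2 (hFC e y y.2).symm
    have h5 : Nat.card ψ.range ∣ 16 := by
      rw [← index_ker, hk, index_comap]
      exact (relIndex_dvd_index_of_normal _ _).trans iF
    have h6 : Nat.card ψ.range ≤ 2 := Nat.le_of_dvd (by norm_num) (Nat.dvd_gcd h4 h5)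
    have h7 : Nat.card ψ.ker ≤ 3 := by
      rw [← cD, hk]
      exact Nat.card_le_card_of_injective (fun s => (⟨s.1.1, s.2⟩ : D))
        fun a b e => Subtype.ext (Subtype.ext (congrArg (Subtype.val : D → Y) e))
    have h8 := ψ.ker.card_mul_index
    rw [index_ker] at h8
    have h10 := S.card_mul_index
    have h11 := Nat.le_of_dvd (by norm_num) iS
    calc Nat.card Y = Nat.card ψ.ker * Nat.card ψ.range * S.index := by rw [h8, h10]
      _ ≤ 3 * 2 * 2 := Nat.mul_le_mul (Nat.mul_le_mul h7 h6) h11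
      _ ≤ 16 := by norm_num

end E2

theorem Fa.e21 (h : Fa 2 2 φ) : KB 3 X :=
  h.exists_GL.elim fun f hf => E2.gl22.of_injective f hf

theorem Fa.e31 (h : Fa 3 2 φ) : KB 9 X :=
  h.exists_GL.elim fun f hf => E2.gl23.of_injective f hf

theorem Ir.e22 (h : Ir 2 4 φ) : KB 27 X := by
  have hX : Nat.card X ∣ 20160 := by
    have := h.toFa.card_dvd
    rwa [show ∏ i : Fin 4, (2 ^ 4 - 2 ^ (i : ℕ)) = 20160 by decide] at this
  by_cases h5 : 5 ∣ Nat.card (fittingSubgroup X)
  · exact E2.caseA h h5 hX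
  have h2 := h.not_dvd_fitting
  have h7 : ¬ 7 ∣ Nat.card (fittingSubgroup X) := fun e => by
    have := h.dvd_of_dvd_fitting (by norm_num) e
    omega
  have h9 : Nat.card (fittingSubgroup X) ∣ 9 := by
    refine Nat.Coprime.dvd_of_dvd_mul_left (m := 2 ^ 6 * 5 * 7) ?_ ((card_subgroup_dvd_card _).trans hX)
    exact Nat.Coprime.mul_right (Nat.Coprime.mul_right (Nat.Coprime.pow_right _
      ((Nat.Prime.coprime_iff_not_dvd Nat.prime_two).2 h2).symm)
      ((Nat.Prime.coprime_iff_not_dvd Nat.prime_five).2 h5).symm)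
      ((Nat.Prime.coprime_iff_not_dvd (by norm_num)).2 h7).symm
  by_cases e9 : Nat.card (fittingSubgroup X) = 9
  · exact E2.caseC h.sol e9 hX
  have h3 : Nat.card (fittingSubgroup X) ∣ 3 := by
    have := Nat.le_of_dvd (by norm_num) h9
    generalize Nat.card (fittingSubgroup X) = m at h9 e9 this
    interval_cases m <;> omega
  haveI := isCyclic_of_card_dvd_prime h3
  have h4 := index_fitting_dvd h.sol
  rw [IsCyclic.card_mulAut] at h4
  have h6 := (Nat.le_of_dvd (Nat.totient_pos.2 Nat.card_pos) h4).trans (Nat.totient_le _)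
  have h8 := Nat.le_of_dvd (by norm_num) h3
  refine kb_of_card_le ?_
  rw [← (fittingSubgroup X).card_mul_index]
  exact (Nat.mul_le_mul h8 (h6.trans h8)).trans (by norm_num)

end H81.KR
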