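import Mathlib
import Cfsg.Agent.Base
import Cfsg.Agent.Lib.KR.Defs
import Cfsg.Agent.Lib.PGroup.TwoCyclic

/-! Nilpotent groups of coprime order have real vectors. -/

set_option autoImplicit false
set_option linter.unusedSectionVars false

namespace H81.KR

open Subgroup Cfsg

universe u

namespace RV

section Group

variable {G : Type*} [Group G] [Finite G] [Group.IsNilpotent G]

theorem normal_map {q : ℕ} [Fact q.Prime] (A : Subgroup (pCore q G)) [hA : A.Normal] :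
    (A.map (pCore q G).subtype).Normal := by
  rw [← normalizer_eq_top_iff, eq_top_iff, ← H1.pCore_sup_pPrimeCore_eq_top q]
  refine sup_le (fun g hg => mem_normalizer_fintype ?_) ((H1.pPrimeCore_le_centralizer_pCore.trans
    (centralizer_le (map_subtype_le A))).trans (centralizer_le_normalizer _))
  rintro _ ⟨a, ha, rfl⟩
  exact ⟨_, hA.conj_mem a ha ⟨g, hg⟩, rfl⟩

theorem cyc (hc : ∀ A : Subgroup G, A.Normal → IsMulCommutative A → IsCyclic A) (q : ℕ) [hq : Fact q.Prime] :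
    ∃ a : G, (zpowers a).Normal ∧ ∀ g ∈ pCore q G, ∀ h ∈ pCore q G, g ∉ zpowers a → h ∉ zpowers a →
      q = 2 ∧ g * h ∈ zpowers a := by
  have hP : ∀ A : Subgroup (pCore q G), A.Normal → IsMulCommutative A → IsCyclic A := fun A _ _ =>
    (A.equivMapOfInjective _ (subtype_injective _)).isCyclic.2 (hc _ (normal_map A) inferInstance)
  have k : ∀ a : pCore q G, (zpowers a).Normal → (zpowers (a : G)).Normal := fun a _ =>
    MonoidHom.map_zpowers (pCore q G).subtype a ▸ normal_map (zpowers a)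
  have m : ∀ {a g : pCore q G}, g ∈ zpowers a → (g : G) ∈ zpowers (a : G) := fun ⟨n, hn⟩ =>
    ⟨n, congrArg Subtype.val hn⟩
  by_cases h1 : IsCyclic (pCore q G)
  · obtain ⟨a, ha⟩ := IsCyclic.exists_generator (α := pCore q G)
    exact ⟨a, k a ⟨fun _ _ _ => ha _⟩, fun g hg _ _ h => (h (m (ha ⟨g, hg⟩))).elim⟩
  by_cases h2 : q = 2
  · subst h2
    obtain ⟨a, -, -, -, ha, -⟩ := (H5.exists_of_normal_abelian_cyclic H1.isPGroup_pCore hP).resolve_left h1
    refine ⟨a, k a (normal_of_index_eq_two ha), fun g hg h hh e1 e2 => ⟨rfl, ?_⟩⟩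
    exact m ((mul_mem_iff_of_index_two ha (a := ⟨g, hg⟩) (b := ⟨h, hh⟩)).2
      (iff_of_false (mt m e1) (mt m e2)))
  obtain ⟨A, hA, ⟨h3, h4⟩, h5⟩ := H5.exists_normal_elementary_sq h2 H1.isPGroup_pCore h1
  have := hP A hA h3
  have h6 : Monoid.exponent A ∣ q := Monoid.exponent_dvd_of_forall_pow_eq_one fun x => Subtype.ext (h4 x x.2)
  rw [IsCyclic.exponent_eq_card, h5] at h6
  have := Nat.le_of_dvd hq.1.pos h6
  nlinarith [hq.1.one_lt]

theorem two (hc : ∀ A : Subgroup G, A.Normal → IsMulCommutative A → IsCyclic A) (S : Subgroup G)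
    (hS : ∀ g ∈ S, (zpowers g).Normal → g = 1) : ∃ t ∈ S, t * t = 1 ∧ ∀ g ∈ S, g = 1 ∨ g = t := by
  have h1 : ∀ a : G, (zpowers a).Normal → ∀ g ∈ S, g ∈ zpowers a → g = 1 := by
    rintro a ha _ hg ⟨n, rfl⟩
    refine hS _ hg ⟨?_⟩
    rintro _ ⟨j, rfl⟩ y
    obtain ⟨i, hi⟩ := ha.conj_mem a (mem_zpowers a) y
    refine ⟨i * j, ?_⟩
    simp only at hi ⊢
    rw [← conj_zpow, ← conj_zpow, ← hi, ← zpow_mul, ← zpow_mul, ← zpow_mul, mul_left_comm]
  have h2 : ∀ (q : ℕ) [Fact q.Prime] {g : G}, IsPGroup q (zpowers g) → g ∈ pCore q G := fun q _ g h =>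
    H1.le_pCore_of_le_fitting h (by rw [H1.fitting_eq_top_iff.2 inferInstance]; exact le_top) (mem_zpowers g)
  have h3 : ∀ g ∈ S, g ∈ pCore 2 G := fun g hg => h2 2 (IsPGroup.of_card ((Nat.card_zpowers g).trans
    (Nat.eq_prime_pow_of_unique_prime_dvd (orderOf_pos g).ne' fun {q} hq hd => by
      haveI := Fact.mk hq
      obtain ⟨a, ha, h⟩ := cyc hc q
      have e : orderOf (g ^ (orderOf g / q)) = q := orderOf_pow_orderOf_div (orderOf_pos g).ne' hd
      have m := h2 q (IsPGroup.of_card ((Nat.card_zpowers _).trans (e.trans (pow_one q).symm)))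
      have n : g ^ (orderOf g / q) ∉ zpowers a := fun k => hq.one_lt.ne' (by
        rw [← e, h1 a ha _ (pow_mem hg _) k, orderOf_one])
      exact (h _ m _ m n n).1)))
  obtain ⟨a, ha, h⟩ := cyc hc 2
  have h4 : ∀ g ∈ S, ∀ k ∈ S, g ≠ 1 → k ≠ 1 → g * k = 1 := fun g hg k hk g1 k1 => h1 a ha _ (mul_mem hg hk)
    (h g (h3 g hg) k (h3 k hk) (mt (h1 a ha g hg) g1) (mt (h1 a ha k hk) k1)).2
  rcases S.bot_or_exists_ne_one with rfl | ⟨t, ht, t1⟩
  · exact ⟨1, one_mem _, one_mul 1, fun g hg => .inl hg⟩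
  · exact ⟨t, ht, h4 t ht t ht t1 t1, fun g hg => or_iff_not_imp_left.2 fun g1 =>
      mul_right_cancel ((h4 g hg t ht g1 t1).trans (h4 t ht t ht t1 t1).symm)⟩

end Group

variable {k : Type*} [Field k] {G V : Type*} [Group G] [AddCommGroup V] [Module k V]

/-- existence of a real vector -/
def Re (ρ : Representation k G V) : Prop :=
  ∃ (v : V) (β : V →ₗ[k] V →ₗ[k] k), (∀ x, (∀ y, β x y = 0) → x = 0) ∧
    ∀ g, ρ g v = v → ∀ x y, β (ρ g x) (ρ g y) = β x y

theorem exists_form (V : Type*) [AddCommGroup V] [Module k V] [Module.Finite k V] :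
    ∃ β : V →ₗ[k] V →ₗ[k] k, ∀ x, (∀ y, β x y = 0) → x = 0 :=
  ⟨(Module.finBasis k V).toDual, fun _ h => (Module.finBasis k V).toDual_injective
    ((LinearMap.ext h).trans (map_zero _).symm)⟩

theorem glue {W W' : Submodule k V} (h : IsCompl W W') {b : W →ₗ[k] W →ₗ[k] k} {b' : W' →ₗ[k] W' →ₗ[k] k}
    (n : ∀ x, (∀ y, b x y = 0) → x = 0) (n' : ∀ x, (∀ y, b' x y = 0) → x = 0) :
    ∃ β : V →ₗ[k] V →ₗ[k] k, (∀ x, (∀ y, β x y = 0) → x = 0) ∧ ∀ (f : V →ₗ[k] V) (h1 : ∀ x ∈ W, f x ∈ W)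
      (h2 : ∀ x ∈ W', f x ∈ W'), (∀ x y : W, b ⟨_, h1 x x.2⟩ ⟨_, h1 y y.2⟩ = b x y) →
        (∀ x y : W', b' ⟨_, h2 x x.2⟩ ⟨_, h2 y y.2⟩ = b' x y) → ∀ x y, β (f x) (f y) = β x y := by
  let e := (Submodule.prodEquivOfIsCompl W W' h).symm.toLinearMap
  let β := b.compl₁₂ ((LinearMap.fst k W W').comp e) ((LinearMap.fst k W W').comp e) +
    b'.compl₁₂ ((LinearMap.snd k W W').comp e) ((LinearMap.snd k W W').comp e)
  have hβ : ∀ (x y : W) (x' y' : W'), β (x + x') (y + y') = b x y + b' x' y' := fun x y x' y' => by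
    simp [β, e]
  have d : ∀ x, ∃ (u : W) (v : W'), (u : V) + v = x := fun x => (Submodule.existsUnique_add_of_isCompl h x).imp
    fun _ h => h.imp fun _ h => h.1
  refine ⟨β, fun x hx => ?_, fun f h1 h2 e1 e2 x y => ?_⟩
  · obtain ⟨u, v, rfl⟩ := d x
    rw [n u fun y => by simpa using (hβ u y v 0).symm.trans (hx _),
      n' v fun y => by simpa using (hβ u 0 v y).symm.trans (hx _)]
    simp
  · obtain ⟨u, v, rfl⟩ := d x
    obtain ⟨u', v', rfl⟩ := d y
    rw [hβ, ← e1, ← e2, ← hβ, map_add f, map_add f]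

theorem re_compl {ρ : Representation k G V} {W W' : Subrepresentation ρ} (h : IsCompl W W')
    (h1 : Re W.toRepresentation) (h2 : Re W'.toRepresentation) : Re ρ := by
  have hc : IsCompl W.toSubmodule W'.toSubmodule :=
    IsCompl.of_eq (congrArg Subrepresentation.toSubmodule h.inf_eq_bot)
      (congrArg Subrepresentation.toSubmodule h.sup_eq_top)
  obtain ⟨w, b, n, i⟩ := h1
  obtain ⟨w', b', n', i'⟩ := h2
  obtain ⟨β, h3, h4⟩ := glue hc n n'
  refine ⟨w + w', β, h3, fun g hg => ?_⟩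
  obtain ⟨u, v, -, h5⟩ := Submodule.existsUnique_add_of_isCompl hc ((w : V) + w')
  have e1 := h5 w w' rfl
  have e2 := h5 (W.toRepresentation g w) (W'.toRepresentation g w') ((map_add (ρ g) _ _).symm.trans hg)
  exact h4 _ (W.apply_mem_toSubmodule g) (W'.apply_mem_toSubmodule g) (i g (e2.1.trans e1.1.symm))
    (i' g (e2.2.trans e1.2.symm))

theorem re_two [Module.Finite k V] {ρ : Representation k G V} {v : V} {t : G} (ht : t * t = 1)
    (h2 : t ≠ 1 → (2 : k) ≠ 0) (h : ∀ g, ρ g v = v → g = 1 ∨ g = t) : Re ρ := by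
  by_cases h1 : t = 1
  · obtain ⟨β, hβ⟩ := exists_form (k := k) V
    exact ⟨v, β, hβ, fun g hg x y => by rw [((h g hg).elim id fun e => e.trans h1 : g = 1), map_one]; rfl⟩
  have tt : ∀ x, ρ t (ρ t x) = x := fun x => by rw [← Module.End.mul_apply, ← map_mul, ht, map_one]; rfl
  have m1 : ∀ {x}, x ∈ LinearMap.ker (ρ t - 1) ↔ ρ t x = x := sub_eq_zero
  have m2 : ∀ {x}, x ∈ LinearMap.ker (ρ t + 1) ↔ ρ t x = -x := add_eq_zero_iff_eq_neg
  have hc : IsCompl (LinearMap.ker (ρ t - 1)) (LinearMap.ker (ρ t + 1)) := by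
    refine ⟨Submodule.disjoint_def.2 fun x e1 e2 => (smul_eq_zero.1 ?_).resolve_left (h2 h1),
      codisjoint_iff.2 (eq_top_iff.2 fun x _ => Submodule.mem_sup.2 ⟨(2 : k)⁻¹ • (x + ρ t x),
        Submodule.smul_mem _ _ (m1.2 ?_), (2 : k)⁻¹ • (x - ρ t x), Submodule.smul_mem _ _ (m2.2 ?_), ?_⟩)⟩
    · rw [two_smul, add_eq_zero_iff_eq_neg, ← m2.1 e2, m1.1 e1]
    · rw [map_add, tt, add_comm]
    · rw [map_sub, tt, neg_sub]
    · rw [← smul_add, add_add_sub_cancel, ← two_smul k, inv_smul_smul₀ (h2 h1)]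
  obtain ⟨b, n⟩ := exists_form (k := k) (LinearMap.ker (ρ t - 1))
  obtain ⟨b', n'⟩ := exists_form (k := k) (LinearMap.ker (ρ t + 1))
  obtain ⟨β, h3, h4⟩ := glue hc n n'
  refine ⟨v, β, h3, fun g hg => ?_⟩
  rcases h g hg with rfl | rfl
  · exact fun x y => by rw [map_one]; rfl
  refine h4 _ (fun x hx => by rwa [m1.1 hx]) (fun x hx => by rw [m2.1 hx]; exact neg_mem hx) (fun x y => ?_)
    fun x y => ?_
  · exact congrArg₂ (fun u v => b u v) (Subtype.ext (m1.1 x.2)) (Subtype.ext (m1.1 y.2))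
  · exact (congrArg₂ (fun u v => b' u v) (Subtype.ext (m2.1 x.2) : _ = -x) (Subtype.ext (m2.1 y.2) : _ = -y)).trans
      (by simp)

theorem re_ind [Finite G] {ρ : Representation k G V} (H : Subgroup G) (W : Subrepresentation (ρ.comp H.subtype))
    (π : V →ₗ[k] W.toSubmodule) (h1 : ∀ w : W.toSubmodule, π w = w)
    (h2 : ∀ h : H, ∀ x, π (ρ h x) = W.toRepresentation h (π x)) (h3 : ∀ g, g ∉ H → ∀ w : W.toSubmodule, π (ρ g w) = 0)
    (h4 : ∀ x, (∀ g, π (ρ g x) = 0) → x = 0) (h : Re W.toRepresentation) : Re ρ := by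
  classical
  haveI := Fintype.ofFinite (G ⧸ H)
  obtain ⟨w, b, n, i⟩ := h
  have mu : ∀ g h x, ρ g (ρ h x) = ρ (g * h) x := fun g h x => by rw [map_mul]; rfl
  have e1 : ∀ (c d : G ⧸ H) (u : W.toSubmodule), π (ρ c.out⁻¹ (ρ d.out u)) = if c = d then u else 0 := fun c d u => by
    rw [mu]
    split_ifs with e
    · rw [e, inv_mul_cancel, map_one, Module.End.one_apply, h1]
    · exact h3 _ (fun k => e (by rw [← c.out_eq', ← d.out_eq', QuotientGroup.eq]; exact k)) u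
  have e2 : ∀ (g : G) (c : G ⧸ H), ∃ h : H, ∀ x, π (ρ (g • c).out⁻¹ (ρ g x)) =
      W.toRepresentation h (π (ρ c.out⁻¹ x)) := fun g c =>
    ⟨⟨(g • c).out⁻¹ * (g * c.out), QuotientGroup.eq.1 ((g • c).out_eq'.trans
      (MulAction.Quotient.mk_smul_out H g c).symm)⟩, fun x => by rw [← h2, mu, mu]; simp⟩
  have e3 : ∀ c : G ⧸ H, π (ρ c.out⁻¹ (∑ d : G ⧸ H, ρ d.out w)) = w := fun c => by
    simp [map_sum, e1]
  refine ⟨∑ d : G ⧸ H, ρ d.out w, ∑ c : G ⧸ H, b.compl₁₂ (π.comp (ρ c.out⁻¹)) (π.comp (ρ c.out⁻¹)),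
    fun x hx => h4 x fun g => ?_, fun g hg x y => ?_⟩
  · obtain ⟨h, hh⟩ := e2 g ((g⁻¹ : G) : G ⧸ H)
    obtain ⟨h', hh'⟩ := QuotientGroup.mk_out_eq_mul H g⁻¹
    have : π (ρ ((g⁻¹ : G) : G ⧸ H).out⁻¹ x) = 0 := n _ fun u => by
      have := hx (ρ ((g⁻¹ : G) : G ⧸ H).out u)
      simp only [LinearMap.sum_apply, LinearMap.compl₁₂_apply, LinearMap.comp_apply, e1] at this
      rwa [Finset.sum_eq_single ((g⁻¹ : G) : G ⧸ H) (fun c _ e => by rw [if_neg e, map_zero]) (by simp),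
        if_pos rfl] at this
    rw [show g = h' * ((g⁻¹ : G) : G ⧸ H).out⁻¹ by rw [hh']; simp, ← mu, h2, this, map_zero]
  · simp only [LinearMap.sum_apply, LinearMap.compl₁₂_apply, LinearMap.comp_apply]
    refine (Fintype.sum_equiv (MulAction.toPerm g) _ _ fun c => ?_).symm
    obtain ⟨h, hh⟩ := e2 g c
    have := hh (∑ d : G ⧸ H, ρ d.out w)
    rw [hg, e3, e3] at this
    rw [MulAction.toPerm_apply, hh, hh, i h this.symm]

/-- fixed vectors of a subgroup -/
def fx (ρ : Representation k G V) (B : Subgroup G) : Submodule k V where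
  carrier := {x | ∀ b ∈ B, ρ b x = x}
  add_mem' := fun h1 h2 b hb => by rw [map_add, h1 b hb, h2 b hb]
  zero_mem' := fun _ _ => map_zero _
  smul_mem' := fun c x h b hb => by rw [map_smul, h b hb]

theorem fx_inv {ρ : Representation k G V} {B : Subgroup G} {g : G} (hg : g ∈ normalizer (B : Set G)) {x : V}
    (hx : x ∈ fx ρ B) : ρ g x ∈ fx ρ B := fun b hb => by
  rw [← Module.End.mul_apply, ← map_mul, show b * g = g * (g⁻¹ * b * g) by group, map_mul, Module.End.mul_apply,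
    hx _ ((mem_normalizer_iff''.1 hg b).1 hb)]

theorem eq_bot {ρ : Representation k G V} (hf : ∀ g, ρ g = 1 → g = 1)
    (hI : ∀ W : Subrepresentation ρ, W = ⊥ ∨ W = ⊤) {N : Subgroup G} (hN : N.Normal) (h : fx ρ N ≠ ⊥) : N = ⊥ := by
  have := (hI ⟨fx ρ N, fun g _ => fx_inv (by rw [normalizer_eq_top]; trivial)⟩).resolve_left
    fun e => h (congrArg Subrepresentation.toSubmodule e)
  exact eq_bot_iff.2 fun g hg => hf g (LinearMap.ext fun x =>
    (congrArg Subrepresentation.toSubmodule this).ge Submodule.mem_top g hg)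

theorem re_ab [Finite G] {ρ : Representation k G V} (hk : (Nat.card G : k) ≠ 0) (hf : ∀ g, ρ g = 1 → g = 1)
    (hI : ∀ W : Subrepresentation ρ, W = ⊥ ∨ W = ⊤) {A : Subgroup G} [hA : A.Normal]
    (hc : ∀ a ∈ A, ∀ b ∈ A, a * b = b * a) {a : G} (ha : a ∈ A) (a1 : a ≠ 1) {v : V} (hv : v ≠ 0) (e : ρ a v = v)
    (ih : ∀ H : Subgroup G, H ≠ ⊤ → ∀ W : Subrepresentation (ρ.comp H.subtype), Re W.toRepresentation) : Re ρ := by
  classical
  obtain ⟨B, h1, ⟨h2, h3⟩, h4⟩ := Finite.exists_le_maximal (p := fun B : Subgroup G => B ≤ A ∧ fx ρ B ≠ ⊥)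
    (a := zpowers a) ⟨zpowers_le_of_mem ha, (Submodule.ne_bot_iff _).2 ⟨v, fun b hb =>
      zpowers_le_of_mem (H := ((MulAction.stabilizer (V →ₗ[k] V)ˣ v).comap ρ.toHomUnits)) e hb, hv⟩⟩
  haveI := Fintype.ofFinite B
  have hB : (Nat.card B : k) ≠ 0 := fun e => hk (by
    obtain ⟨c, hc⟩ := card_subgroup_dvd_card B
    rw [hc, Nat.cast_mul, e, zero_mul])
  have mu : ∀ g h x, ρ g (ρ h x) = ρ (g * h) x := fun g h x => by rw [map_mul]; rfl
  let π : V →ₗ[k] fx ρ B := LinearMap.codRestrict _ ((Nat.card B : k)⁻¹ • ∑ b : B, ρ b) fun x c hc => by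
    simp only [LinearMap.smul_apply, LinearMap.sum_apply, map_smul, map_sum, mu]
    exact congrArg _ (Fintype.sum_equiv (Equiv.mulLeft (⟨c, hc⟩ : B)) _ _ fun _ => rfl)
  have hπ : ∀ x, (π x : V) = (Nat.card B : k)⁻¹ • ∑ b : B, ρ b x := fun x => by simp [π]
  have p1 : ∀ w : fx ρ B, π w = w := fun w => Subtype.ext (by
    rw [hπ, Finset.sum_congr rfl fun (b : B) _ => w.2 b b.2, Finset.sum_const, Finset.card_univ, ← Nat.card_eq_fintype_card,
      ← Nat.cast_smul_eq_nsmul k, inv_smul_smul₀ hB])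
  have p2 : ∀ h ∈ normalizer (B : Set G), ∀ x, (π (ρ h x) : V) = ρ h (π x) := fun h hh x => by
    simp only [hπ, map_smul, map_sum, mu]
    refine congrArg _ (Fintype.sum_equiv (B.normalizerMonoidHom ⟨h, hh⟩).toEquiv _ _ fun b => ?_).symm
    exact congrArg (fun g => ρ g x) (inv_mul_cancel_right _ h).symm
  refine re_ind (normalizer (B : Set G)) ⟨fx ρ B, fun g _ => fx_inv g.2⟩ π p1 (fun h x => Subtype.ext (p2 h h.2 x))
    (fun g hg w => by_contra fun h0 => hg ?_) (fun x hx => ?_) (ih _ (fun e => a1 ?_) _)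
  · have hAB : A ≤ normalizer (B : Set G) := fun c hc' => centralizer_le_normalizer _ fun b hb => hc b (h2 hb) c hc'
    let D := B ⊔ B.map (MulAut.conj g).toMonoidHom
    have hD : D ≤ B := h4 ⟨sup_le h2 (by rintro _ ⟨b, hb, rfl⟩; exact hA.conj_mem b (h2 hb) g),
      (Submodule.ne_bot_iff _).2 ⟨π (ρ g w), fun d hd => (sup_le (fun b hb => (π (ρ g w)).2 b hb) (by
        rintro _ ⟨b, hb, rfl⟩
        show ρ (g * b * g⁻¹) _ = _
        rw [← p2 _ (hAB (hA.conj_mem b (h2 hb) g)), mu, inv_mul_cancel_right, ← mu, w.2 b hb]) :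
          D ≤ (MulAction.stabilizer (V →ₗ[k] V)ˣ (π (ρ g w) : V)).comap ρ.toHomUnits) hd,
        fun e => h0 (Subtype.ext e)⟩⟩ le_sup_left
    exact mem_normalizer_fintype fun b hb => hD (mem_sup_right ⟨b, hb, rfl⟩)
  · let K : Subrepresentation ρ := ⟨⨅ g, LinearMap.ker (π.comp (ρ g)), fun g y hy => by
      simp only [Submodule.mem_iInf, LinearMap.mem_ker, LinearMap.comp_apply, mu] at hy ⊢
      exact fun h => hy _⟩
    rcases hI K with e | e
    · exact (congrArg Subrepresentation.toSubmodule e).le ((Submodule.mem_iInf _).2 hx)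
    · obtain ⟨w, hw, w0⟩ := (Submodule.ne_bot_iff _).1 h3
      have := (Submodule.mem_iInf _).1 ((congrArg Subrepresentation.toSubmodule e).ge (Submodule.mem_top (x := w))) 1
      rw [LinearMap.mem_ker, map_one, LinearMap.comp_apply, Module.End.one_apply] at this
      exact (w0 (congrArg Subtype.val ((p1 ⟨w, hw⟩).symm.trans this))).elim
  · exact (eq_bot hf hI (normalizer_eq_top_iff.1 e) h3).le (h1 (mem_zpowers a))

theorem main {p : ℕ} [Fact p.Prime] (n : ℕ) : ∀ (G : Type u) (V : Type*) [Group G] [Finite G] [AddCommGroup V]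
    [Module (ZMod p) V] [Finite V], Nat.card G + Nat.card V = n → Group.IsNilpotent G → ¬ p ∣ Nat.card G →
      ∀ ρ : Representation (ZMod p) G V, Re ρ := by
  induction n using Nat.strong_induction_on with
  | _ n ih =>
  rintro G V _ _ _ _ _ rfl hn hp ρ
  have hk : (Nat.card G : ZMod p) ≠ 0 := mt (ZMod.natCast_eq_zero_iff _ _).1 hp
  haveI := NeZero.mk hk
  rcases subsingleton_or_nontrivial V with _ | _
  · exact ⟨0, 0, fun _ _ => Subsingleton.elim _ _, fun _ _ _ _ => rfl⟩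
  by_cases hf : ρ.ker = ⊥
  swap
  · obtain ⟨v, β, h1, h2⟩ := ih _ (Nat.add_lt_add_right (show Nat.card (G ⧸ ρ.ker) < Nat.card G by
      have := card_mul_index ρ.ker
      have h1 := (one_lt_card_iff_ne_bot _).2 hf
      have h2 : 0 < ρ.ker.index := Nat.pos_of_ne_zero index_ne_zero_of_finite
      rw [← index_eq_card]; nlinarith) _) (G ⧸ ρ.ker) V rfl inferInstance
      (fun h => hp (h.trans (card_quotient_dvd_card _))) (QuotientGroup.lift ρ.ker ρ le_rfl)
    exact ⟨v, β, h1, fun g => h2 g⟩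
  replace hf : ∀ g, ρ g = 1 → g = 1 := fun g hg => hf.le hg
  by_cases hI : ∀ W : Subrepresentation ρ, W = ⊥ ∨ W = ⊤
  swap
  · push Not at hI
    obtain ⟨W, h1, h2⟩ := hI
    obtain ⟨W', h⟩ := exists_isCompl W
    have k : ∀ U : Subrepresentation ρ, U ≠ ⊤ → Re U.toRepresentation := fun U hU =>
      ih _ (Nat.add_lt_add_left (Finite.card_subtype_lt (SetLike.exists_not_mem_of_ne_top _
        fun e => hU (Subrepresentation.toSubmodule_injective e)).choose_spec) _) G _ rfl hn hp _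
    exact re_compl h (k W h2) (k W' fun e => h1 (eq_bot_of_isCompl_top (e ▸ h)))
  by_cases hc : ∀ A : Subgroup G, A.Normal → IsMulCommutative A → IsCyclic A
  · obtain ⟨v, hv⟩ := exists_ne (0 : V)
    obtain ⟨t, -, h1, h2⟩ := two hc ((MulAction.stabilizer (V →ₗ[ZMod p] V)ˣ v).comap ρ.toHomUnits) fun g hg h =>
      (eq_bot hf hI h ((Submodule.ne_bot_iff _).2 ⟨v, fun b hb => zpowers_le_of_mem hg hb, hv⟩)).le (mem_zpowers g)
    refine re_two h1 (fun t1 e => hp ?_) h2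
    exact ((ZMod.natCast_eq_zero_iff 2 p).1 e).trans
      (orderOf_eq_prime (p := 2) ((sq t).trans h1) t1 ▸ orderOf_dvd_natCard t)
  push Not at hc
  obtain ⟨A, _, _, hA⟩ := hc
  obtain ⟨a, a1, v, e, hv⟩ : ∃ a : A, a ≠ 1 ∧ ∃ v, ρ a v = v ∧ v ≠ 0 := by
    by_contra h
    push Not at h
    exact hA (H2.isCyclic_of_fpf_of_comm (V := Multiplicative V) (MonoidHom.mk' (fun a : A =>
      AddEquiv.toMultiplicative (LinearMap.GeneralLinearGroup.toLinearEquiv (ρ.toHomUnits a)).toAddEquiv)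
        fun a b => MulEquiv.ext fun x => congrArg (fun f : V →ₗ[ZMod p] V => f x) (map_mul ρ (a : G) (b : G))) h)
  exact re_ab hk hf hI (fun a ha b hb => setLike_mul_comm ha hb) a.2 (fun e => a1 (Subtype.ext e)) hv e
    fun H hH W => ih _ (Nat.add_lt_add_of_lt_of_le (Finite.card_subtype_lt
      (SetLike.exists_not_mem_of_ne_top _ hH).choose_spec) (Finite.card_subtype_le _)) H _ rfl inferInstance
        (fun h => hp (h.trans (card_subgroup_dvd_card H))) _

end RV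

/-- nilpotent `p'`-groups have real vectors -/
theorem rv {p : ℕ} [Fact p.Prime] {G V : Type*} [Group G] [Finite G] [AddCommGroup V]
    [Module (ZMod p) V] [Finite V] (hn : Group.IsNilpotent G) (hp : ¬ p ∣ Nat.card G)
    (ρ : Representation (ZMod p) G V) :
    ∃ (v : V) (β : V →ₗ[ZMod p] V →ₗ[ZMod p] ZMod p), (∀ x, (∀ y, β x y = 0) → x = 0) ∧
      ∀ g, ρ g v = v → ∀ x y, β (ρ g x) (ρ g y) = β x y := RV.main _ G V rfl hn hp ρ

end H81.KR
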