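import Mathlib
import Cfsg.Agent.Base
import Cfsg.Agent.Lib.KR.RV
import Cfsg.Agent.S4959

/-! The class number bound for nilpotent coprime linear groups. -/

set_option autoImplicit false
set_option linter.unusedSectionVars false

namespace H81.KR

open Subgroup Cfsg

universe u

theorem rv_mul {p : ℕ} [Fact p.Prime] {G V : Type*} [Group G] [Finite G] [CommGroup V] [Finite V]
    [Module (ZMod p) (Additive V)] (hn : Group.IsNilpotent G) (hp : ¬ p ∣ Nat.card G)
    (φ : G →* MulAut V) : ∃ (v : V) (β : V → V → ZMod p), (∀ x y z, β (x * y) z = β x z + β y z) ∧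
      (∀ x y z, β x (y * z) = β x y + β x z) ∧ (∀ x, (∀ y, β x y = 0) → x = 1) ∧
      ∀ g, φ g v = v → ∀ x y, β (φ g x) (φ g y) = β x y := by
  let ρ : G →* Module.End (ZMod p) (Additive V) :=
    { toFun := fun g =>
        { toFun := fun x => Additive.ofMul (φ g (Additive.toMul x))
          map_add' := fun x y => by simp
          map_smul' := ZMod.map_smul (MonoidHom.toAdditive (φ g).toMonoidHom) }
      map_one' := LinearMap.ext fun x => by simp
      map_mul' := fun a b => LinearMap.ext fun x =>
        congrArg Additive.ofMul (MulEquiv.congr_fun (map_mul φ a b) _) }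
  obtain ⟨v, β, h1, h2⟩ := rv hn hp ρ
  exact ⟨Additive.toMul v, fun x y => β (Additive.ofMul x) (Additive.ofMul y),
    fun x y z => by simp, fun x y z => by simp, fun x hx => h1 _ hx, fun g hg x y => h2 g hg _ _⟩

/-- the `k(GV)` bound for nilpotent `G` -/
theorem kgv {X : Type*} [Group X] [Finite X] {p : ℕ} [Fact p.Prime] (V : Subgroup X) [V.Normal]
    (hV : ∀ v ∈ V, v ^ p = 1) (hc : centralizer (V : Set X) = V) (hp : ¬ p ∣ V.index)
    (hn : Group.IsNilpotent (X ⧸ V)) : Nat.card (ConjClasses X) ≤ Nat.card V := by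
  classical
  obtain ⟨r, hr⟩ := (H3.isPGroup_of_pow_eq_one hV).exists_card_eq
  obtain ⟨G, hG⟩ := exists_right_complement'_of_coprime (N := V) (by
    rw [hr]
    exact Nat.Coprime.pow_left r ((Nat.Prime.coprime_iff_not_dvd Fact.out).2 hp))
  have e := hG.symm.QuotientMulEquiv
  letI : CommGroup V := { (inferInstance : Group V) with
    mul_comm := fun a b => Subtype.ext (hc.ge b.2 a a.2) }
  haveI : Module (ZMod p) (Additive V) := AddCommGroup.zmodModule fun x =>
    Additive.toMul.injective (Subtype.ext (hV _ (Additive.toMul x).2))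
  obtain ⟨v, β, b1, b2, h1, h2⟩ := rv_mul (p := p) (V := V)
    (Group.nilpotent_of_surjective e.toMonoidHom e.surjective)
    (by rwa [← Nat.card_congr e.toEquiv]) (MulAut.conjNormal.comp G.subtype)
  let a : X → V := fun x => if h : x ∈ V then ⟨x, h⟩ else 1
  have ha : ∀ x (h : x ∈ V), a x = ⟨x, h⟩ := fun x h => dif_pos h
  have hm : ∀ x ∈ V, ∀ y ∈ V, a (x * y) = a x * a y := fun x hx y hy => by
    rw [ha x hx, ha y hy, ha _ (mul_mem hx hy)]
    rfl
  have hj : ∀ g, ∀ x ∈ V, a (g * x * g⁻¹) = MulAut.conjNormal g (a x) := fun g x hx => by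
    rw [ha x hx, ha _ (Normal.conj_mem inferInstance x hx g)]
    rfl
  refine Cfsg.Agent.S4959.result p V hV hp hc G hG v v.2 V le_rfl
    (fun h _ _ u hu => Normal.conj_mem inferInstance u hu h) (fun h hh _ e1 => ?_)
    (fun x y => β (a x) (a y)) (fun u hu u' hu' w _ => by simp only [hm u hu u' hu', b1])
    (fun u _ w hw w' hw' => by simp only [hm w hw w' hw', b2])
    (fun h hh e1 u hu w hw => ?_) fun u hu e1 => ?_
  · exact mem_bot.1 (hG.disjoint.le_bot
      ⟨hc.le fun u hu => (mul_inv_eq_iff_eq_mul.1 (e1 u hu)).symm, hh⟩)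
  · simp only [hj h u hu, hj h w hw]
    exact h2 ⟨h, hh⟩ (Subtype.ext e1) _ _
  · have := h1 (a u) fun y => by simpa only [ha _ y.2] using e1 _ y.2
    rw [ha u hu] at this
    exact congrArg Subtype.val this

theorem Fa.kb_nil {p n : ℕ} [Fact p.Prime] {X U : Type*} [Group X] [Group U] [Finite X] [Finite U]
    {φ : X →* MulAut U} (h : Fa p n φ) {F : Subgroup X} (hn : Group.IsNilpotent F)
    (hp : ¬ p ∣ Nat.card F) : KB (p ^ n) F := fun H => by
  let ψ : H →* MulAut U := φ.comp (F.subtype.comp H.subtype)
  have hψ : Function.Injective ψ := h.inj.comp (F.subtype_injective.comp H.subtype_injective)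
  haveI : Finite (U ⋊[ψ] H) := Finite.of_equiv _ SemidirectProduct.equivProd.symm
  let π : U ⋊[ψ] H →* H := SemidirectProduct.rightHom
  have hπ : Function.Surjective π := SemidirectProduct.rightHom_surjective
  have e := QuotientGroup.quotientKerEquivOfSurjective π hπ
  have hk : π.ker = SemidirectProduct.inl.range := SemidirectProduct.range_inl_eq_ker_rightHom.symm
  have h1 := kgv (p := p) π.ker (fun v hv => by
    obtain ⟨u, rfl⟩ := hk.le hv
    rw [← map_pow, h.exp, map_one]) (le_antisymm (fun g hg => hψ (MulEquiv.ext fun u => by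
      have := congrArg SemidirectProduct.left (hg (SemidirectProduct.inl u) (hk.ge ⟨u, rfl⟩))
      simp only [SemidirectProduct.mul_left, SemidirectProduct.left_inl, SemidirectProduct.right_inl,
        map_one, MulAut.one_apply] at this
      rw [h.comm u] at this
      rw [map_one]
      exact (mul_left_cancel this).symm)) fun g hg x hx => by
        obtain ⟨u, rfl⟩ := hk.le hg
        obtain ⟨w, rfl⟩ := hk.le hx
        rw [← map_mul, ← map_mul, h.comm])
    (fun e1 => hp ((by rwa [index, Nat.card_congr e.toEquiv] at e1 : p ∣ Nat.card H).trans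
      (card_subgroup_dvd_card H)))
    (Group.nilpotent_of_surjective e.symm.toMonoidHom e.symm.surjective)
  rw [hk, ← Nat.card_congr (MonoidHom.ofInjective SemidirectProduct.inl_injective).toEquiv,
    h.card] at h1
  exact (card_cc_le_of_surjective π hπ).trans h1

end H81.KR
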