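import Mathlib
import Cfsg.Agent.Base
import Cfsg.Agent.Lib.KR.KGV
import Cfsg.Agent.Lib.H4.OutSmall

set_option autoImplicit false
set_option linter.unusedSectionVars false
set_option linter.style.haveILetI false
set_option linter.unusedVariables false

namespace H81.KR

open Subgroup Cfsg

universe u

variable {X U : Type*} [Group X] [Group U] [Finite X] [Finite U] {φ : X →* MulAut U}

namespace E23

theorem half {x : X} (hx : x ∉ fittingSubgroup X) :
    2 * Nat.card (centralizer ({x} : Set X)) ≤ Nat.card X := by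
  set C := centralizer ({x} : Set X)
  have h1 : C.index ≠ 1 := fun e => hx (H1.center_le_fitting (mem_center_iff.2 fun g =>
    mem_centralizer_singleton_iff.1 (show g ∈ C from index_eq_one.1 e ▸ mem_top g)))
  have h2 : C.index ≠ 0 := index_ne_zero_of_finite
  rw [← C.index_mul_card]
  exact Nat.mul_le_mul_right _ (by omega)

theorem comm_of_dvd_sq {p : ℕ} (hp : p.Prime) {P : Subgroup X} (h : Nat.card P ∣ p ^ 2) :
    P ≤ centralizer (P : Set X) := by
  haveI := Fact.mk hp
  have hc : IsMulCommutative P := by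
    obtain ⟨k, hk, e⟩ := (Nat.dvd_prime_pow hp).1 h
    interval_cases k
    · haveI := (Nat.card_eq_one_iff_unique.1 (e.trans (pow_zero p))).1
      exact ⟨⟨fun a b => Subsingleton.elim _ _⟩⟩
    · haveI := isCyclic_of_prime_card (e.trans (pow_one p))
      exact IsCyclic.isMulCommutative
    · exact IsPGroup.isMulCommutative_of_card_eq_prime_sq e
  exact fun x hx y hy => congrArg Subtype.val (hc.is_comm.comm (⟨y, hy⟩ : P) ⟨x, hx⟩)

theorem sup_comm' {A B : Subgroup X} (hA : A ≤ centralizer (A : Set X))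
    (hB : B ≤ centralizer (B : Set X)) (hAB : A ≤ centralizer (B : Set X)) :
    A ⊔ B ≤ centralizer ((A ⊔ B : Subgroup X) : Set X) :=
  sup_le (le_centralizer_iff.1 (sup_le hA (le_centralizer_iff.1 hAB)))
    (le_centralizer_iff.1 (sup_le hAB hB))

theorem card_le_of_comm {a : ℕ} {F A : Subgroup X} (hK : KB a F) (hAF : A ≤ F)
    (hA : A ≤ centralizer (A : Set X)) : Nat.card A ≤ a := by
  have := (hK.of_le hAF).card_le (A := ⊤) fun x _ y _ => Subtype.ext (hA y.2 x x.2)
  rwa [card_top] at this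

theorem caseA (hs : Group.IsSolvable X) (hF : IsPGroup 3 (fittingSubgroup X))
    (hK : KB 64 (fittingSubgroup X)) (hX : Nat.card X ∣ 20158709760) : KB 2187 X := by
  set F := fittingSubgroup X
  have hCF : centralizer (F : Set X) ≤ F := H1.centralizer_fitting_le
  have cF : Nat.card F ∣ 81 := by
    obtain ⟨k, hk⟩ := hF.exists_card_eq
    have h1 := (card_subgroup_dvd_card F).trans hX
    rw [hk] at h1 ⊢
    by_contra e
    have h2 : 5 ≤ k := by
      by_contra e2
      exact e (pow_dvd_pow 3 (by omega : k ≤ 4))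
    have : 3 ^ 5 ∣ 20158709760 := (pow_dvd_pow 3 h2).trans h1
    omega
  obtain ⟨d, hd⟩ := hF.index (frattini F)
  have hd3 : d ≤ 3 := by
    have h1 := (hK.of_surjective (QuotientGroup.mk' (frattini F))
      (QuotientGroup.mk'_surjective _)).card_le (A := ⊤) fun a _ b _ => by
        induction a using QuotientGroup.induction_on with | _ a =>
        induction b using QuotientGroup.induction_on with | _ b =>
        rw [← QuotientGroup.mk_mul, ← QuotientGroup.mk_mul, QuotientGroup.eq]
        have := H5.commutator_le_frattini hF (commutator_mem_commutator (mem_top b⁻¹) (mem_top a⁻¹))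
        simpa [commutatorElement_def, mul_assoc] using this
    rw [card_top, ← index_eq_card, hd] at h1
    by_contra e
    have : 3 ^ 4 ≤ 3 ^ d := Nat.pow_le_pow_right (by norm_num) (by omega)
    omega
  let ψ : X →* MulAut (F ⧸ frattini F) := (H4.fratAut F).comp (MulAut.conjNormal (H := F))
  have hk : IsPGroup 3 ψ.ker := fun x => by
    obtain ⟨k, hk⟩ := H4.isPGroup_ker_fratAut hF ⟨MulAut.conjNormal (H := F) x.1, x.2⟩
    have h1 : MulAut.conjNormal (H := F) (x.1 ^ 3 ^ k) = 1 := by
      rw [map_pow]; exact congrArg Subtype.val hk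
    have h2 : x.1 ^ 3 ^ k ∈ F := hCF fun y hy =>
      (mul_inv_eq_iff_eq_mul.1 (congrArg Subtype.val (MulEquiv.congr_fun h1 ⟨y, hy⟩))).symm
    obtain ⟨j, hj⟩ := hF ⟨_, h2⟩
    refine ⟨k + j, Subtype.ext ?_⟩
    have := congrArg Subtype.val hj
    simpa [pow_add, pow_mul] using this
  have hle : ψ.ker ≤ F := H1.le_fitting hk.isNilpotent
  have iF : F.index ∣ 11232 := by
    refine (index_dvd_of_le hle).trans ?_
    rw [index_ker]
    refine (card_subgroup_dvd_card _).trans ?_
    rw [H4.card_aut_fratQuot hF hd, card_GL_zmod]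
    interval_cases d <;> decide
  have h1 : Nat.card X ∣ 81 * 11232 := F.card_mul_index ▸ Nat.mul_dvd_mul cF iF
  have h2 : Nat.card X ≤ 2592 := Nat.le_of_dvd (by norm_num) (by
    have := Nat.dvd_gcd h1 hX
    rwa [show Nat.gcd (81 * 11232) 20158709760 = 2592 by norm_num] at this)
  refine (kb_of_cent (a := 81) (c := 1296) F (Nat.le_of_dvd (by norm_num) cF) (by norm_num)
    fun x hx => ?_).mono (by norm_num)
  have := half hx
  omega

theorem caseB (hs : Group.IsSolvable X) (h49 : Nat.card (fittingSubgroup X) = 49)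
    (hX : Nat.card X ∣ 20158709760) : KB 2187 X := by
  haveI : Fact (Nat.Prime 7) := ⟨by norm_num⟩
  set F := fittingSubgroup X
  have hCF : centralizer (F : Set X) ≤ F := H1.centralizer_fitting_le
  have hc : IsMulCommutative F := IsPGroup.isMulCommutative_of_card_eq_prime_sq (p := 7) h49
  have hA : Nat.card (MulAut F) ∣ 2016 := by
    by_cases hcy : IsCyclic F
    · rw [IsCyclic.card_mulAut, h49]; decide
    · obtain ⟨e⟩ := H23.nonempty_mulAut_equiv_GL (p := 7) (n := 2) hc (fun w => by
        have h1 : orderOf w ∣ 7 ^ 2 := (show Nat.card F = 7 ^ 2 from h49) ▸ orderOf_dvd_natCard w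
        have h2 : orderOf w ≠ 49 := fun e => hcy (isCyclic_of_orderOf_eq_card w (e.trans h49.symm))
        refine orderOf_dvd_iff_pow_eq_one.1 ?_
        obtain ⟨k, hk, e⟩ := (Nat.dvd_prime_pow (by norm_num)).1 h1
        rw [e] at h2 ⊢
        interval_cases k <;> simp at h2 ⊢) h49
      rw [Nat.card_congr e.toEquiv, card_GL_zmod]
      decide
  have h2 := F.card_mul_index
  rw [h49] at h2
  have iF : F.index ∣ 288 := by
    have h1 := (index_fitting_dvd hs).trans hA
    rw [← h2] at hX
    refine Nat.Coprime.dvd_of_dvd_mul_left (m := 7) ?_ h1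
    refine ((Nat.Prime.coprime_iff_not_dvd (by norm_num)).2 fun ⟨k, hk⟩ => ?_).symm
    rw [hk] at hX
    have : 343 ∣ 20158709760 := (Dvd.intro k (by ring)).trans hX
    omega
  have h3 := Nat.le_of_dvd (by norm_num) iF
  refine (kb_of_cent (a := 49) (c := 2016) F h49.le (by norm_num) fun x hx => ?_).mono (by norm_num)
  have := card_cent_mul_le (r := 7) (P := F) (IsPGroup.of_card (n := 2) h49) fun e => hx (hCF e)
  omega

/-- the Fitting subgroup acts without fixed points when `|O_7| = 7` -/
theorem fpf (h : Ir 2 6 φ) (h7 : Nat.card (pCore 7 X) = 7)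
    (hC : fittingSubgroup X ≤ centralizer (pCore 7 X : Set X)) :
    ∀ x : fittingSubgroup X, x ≠ 1 → ∀ u, (φ.comp (fittingSubgroup X).subtype) x u = u → u = 1 := by
  haveI : Fact (Nat.Prime 7) := ⟨by norm_num⟩
  intro x hx u hu
  set P := pCore 7 X
  have hP : IsPGroup 7 P := H1.isPGroup_pCore
  have hP1 : P ≠ ⊥ := fun e => by rw [e, card_bot] at h7; omega
  obtain ⟨r, hr, hrx⟩ := Nat.exists_prime_and_dvd (mt orderOf_eq_one_iff.1 hx)
  haveI := Fact.mk hr
  set y : X := (x : X) ^ (orderOf x / r) with hy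
  have oy : orderOf y = r := by
    rw [hy, ← Subgroup.orderOf_coe x]
    exact orderOf_pow_orderOf_div (orderOf_pos _).ne' (by rwa [Subgroup.orderOf_coe])
  have yF : y ∈ fittingSubgroup X := pow_mem x.2 _
  have huy : u ∈ fix φ (zpowers y) := mem_fix_zpowers.2
    (mem_fix.1 (mem_fix_zpowers.2 (show φ x u = u from hu)) y (pow_mem (mem_zpowers _) _))
  have hZ : IsPGroup r (zpowers y) := IsPGroup.of_card (n := 1) (by rw [Nat.card_zpowers, oy, pow_one])
  have hr63 : r ∣ 63 := h.dvd_of_dvd_fitting hr (hrx.trans (orderOf_dvd_natCard x))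
  have hr37 : r = 3 ∨ r = 7 := by
    have : r ∣ 3 ^ 2 * 7 := hr63
    rcases (Nat.Prime.dvd_mul hr).1 this with e | e
    · exact Or.inl ((Nat.prime_dvd_prime_iff_eq hr Nat.prime_three).1 (hr.dvd_of_dvd_pow e))
    · exact Or.inr ((Nat.prime_dvd_prime_iff_eq hr (by norm_num)).1 e)
  rcases hr37 with rfl | rfl
  · have h1 := card_modEq_fix (φ := φ) hP (fix φ (zpowers y)) fun z hz w hw =>
      map_mem_fix (centralizer_le_normalizer _ fun v hv => by
        obtain ⟨k, rfl⟩ := hv
        exact (Commute.zpow_right (hC yF z hz) k).symm) hw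
    rw [h.fix_eq_bot hP1, inf_bot_eq, card_bot] at h1
    have h2 := card_subgroup_dvd_card (fix φ (zpowers y))
    have h3 : Nat.card (fix φ (zpowers y)) ≠ 64 := fun e => by
      have h4 : y = 1 := h.inj (by
        have := (card_eq_iff_eq_top _).1 (e.trans h.card.symm)
        ext v
        simpa using mem_fix_zpowers.1 (this ▸ mem_top v))
      rw [h4, orderOf_one] at oy
      omega
    have h5 := card_modEq_fix (φ := φ) hZ ⊤ fun _ _ _ _ => mem_top _
    rw [top_inf_eq, card_top, h.card] at h5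
    rw [h.card] at h2
    have h4 : Nat.card (fix φ (zpowers y)) = 1 := by
      obtain ⟨k, hk, e⟩ := (Nat.dvd_prime_pow Nat.prime_two).1 h2
      rw [e] at h1 h3 h5 ⊢
      unfold Nat.ModEq at h1 h5
      interval_cases k <;> omega
    exact mem_bot.1 (card_eq_one.1 h4 ▸ huy)
  · have h1 : zpowers y = P := eq_of_le_of_card_ge
      (H1.le_pCore_of_le_fitting hZ (zpowers_le_of_mem yF)) (by rw [h7, Nat.card_zpowers, oy])
    rw [h1, h.fix_eq_bot hP1] at huy
    exact mem_bot.1 huy

theorem caseC (h : Ir 2 6 φ) (h7 : Nat.card (pCore 7 X) = 7)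
    (hF : fittingSubgroup X = pCore 3 X ⊔ pCore 7 X) : KB 2187 X := by
  haveI : Fact (Nat.Prime 7) := ⟨by norm_num⟩
  have c7 : pCore 7 X ≤ centralizer (pCore 7 X : Set X) :=
    comm_of_dvd_sq (p := 7) (by norm_num) (by rw [h7]; norm_num)
  have c37 : pCore 3 X ≤ centralizer (pCore 7 X : Set X) := H1.pCore_le_centralizer_pCore (by norm_num)
  have hf := fpf h h7 (hF.le.trans (sup_le c37 c7))
  have cF : Nat.card (fittingSubgroup X) ∣ 63 := by
    have := H2.card_modEq_one_of_fpf _ hf
    rw [h.card] at this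
    exact (Nat.modEq_iff_dvd' (by norm_num)).1 this.symm
  have c3 : pCore 3 X ≤ centralizer (pCore 3 X : Set X) := by
    refine comm_of_dvd_sq Nat.prime_three ?_
    obtain ⟨k, hk⟩ := (H1.isPGroup_pCore (p := 3) (G := X)).exists_card_eq
    have h1 := (card_dvd_of_le (H1.pCore_le_fitting (G := X) 3)).trans cF
    rw [hk] at h1 ⊢
    by_contra e
    have h2 : 3 ≤ k := by
      by_contra e2
      exact e (pow_dvd_pow 3 (by omega : k ≤ 2))
    have : 3 ^ 3 ∣ 63 := (pow_dvd_pow 3 h2).trans h1
    omega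
  have hc := sup_comm' c3 c7 c37
  rw [← hF] at hc
  set F := fittingSubgroup X
  haveI : IsMulCommutative F := ⟨⟨fun a b => Subtype.ext (hc b.2 a a.2)⟩⟩
  haveI : Nontrivial U := Finite.one_lt_card_iff_nontrivial.1 (by rw [h.card]; norm_num)
  haveI : IsCyclic F :=
    letI : CommGroup U := { (inferInstance : Group U) with mul_comm := h.comm }
    H2.isCyclic_of_fpf_of_comm (V := U) (φ.comp F.subtype) hf
  have h1 := index_fitting_dvd h.sol
  rw [IsCyclic.card_mulAut] at h1
  have h2 := Nat.le_of_dvd (by norm_num) cF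
  have h3 : F.index ≤ 36 := by
    refine (Nat.le_of_dvd (Nat.totient_pos.2 Nat.card_pos) h1).trans ?_
    exact Nat.le_of_dvd (by norm_num) ((Nat.totient_dvd_of_dvd cF).trans (by decide))
  have h4 : Nat.card X ≤ 63 * 36 := F.card_mul_index ▸ Nat.mul_le_mul h2 h3
  refine (kb_of_cent (a := 63) (c := 1134) F h2 (by norm_num) fun x hx => ?_).mono (by norm_num)
  have := half hx
  omega

end E23

theorem Ir.e23 (h : Ir 2 6 φ) (h1 : KB 243 (X ⧸ fittingSubgroup X)) : KB 2187 X := by
  haveI : Fact (Nat.Prime 7) := ⟨by norm_num⟩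
  have hX : Nat.card X ∣ 20158709760 := by
    have := h.toFa.card_dvd
    rwa [show ∏ i : Fin 6, (2 ^ 6 - 2 ^ (i : ℕ)) = 20158709760 by decide] at this
  have hK : KB 64 (fittingSubgroup X) := h.toFa.kb_nil inferInstance h.not_dvd_fitting
  have hF : fittingSubgroup X = pCore 3 X ⊔ pCore 7 X := by
    refine le_antisymm (H1.fitting_eq_iSup_pCore.le.trans (iSup_le fun r => ?_))
      (sup_le (H1.pCore_le_fitting 3) (H1.pCore_le_fitting 7))
    obtain ⟨r, hr⟩ := r
    haveI := Fact.mk hr
    by_cases e : pCore r X = ⊥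
    · exact e.le.trans bot_le
    have : r ∣ 3 ^ 2 * 7 := h.dvd_sub_one H1.isPGroup_pCore e
    rcases (Nat.Prime.dvd_mul hr).1 this with e | e
    · obtain rfl := (Nat.prime_dvd_prime_iff_eq hr Nat.prime_three).1 (hr.dvd_of_dvd_pow e)
      exact le_sup_left
    · obtain rfl := (Nat.prime_dvd_prime_iff_eq hr (by norm_num : Nat.Prime 7)).1 e
      exact le_sup_right
  obtain ⟨k, hk⟩ := (H1.isPGroup_pCore (p := 7) (G := X)).exists_card_eq
  have hk2 : k ≤ 2 := by
    by_contra e
    have : 7 ^ 3 ∣ 20158709760 :=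
      (pow_dvd_pow 7 (by omega)).trans (hk ▸ (card_subgroup_dvd_card _).trans hX)
    omega
  interval_cases k
  · rw [card_eq_one.1 hk, sup_bot_eq] at hF
    exact E23.caseA h.sol (hF ▸ H1.isPGroup_pCore) hK hX
  · exact E23.caseC h hk hF
  · have h3 : pCore 3 X = ⊥ := by
      by_contra e
      obtain ⟨y, hy, hy1⟩ := (bot_or_exists_ne_one _).resolve_left e
      have c7 := E23.comm_of_dvd_sq (p := 7) (by norm_num) hk.dvd
      have cy : zpowers y ≤ centralizer (zpowers y : Set X) := fun a ⟨i, hi⟩ b ⟨j, hj⟩ => by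
        rw [← hi, ← hj]; exact zpow_mul_comm y j i
      have h4 := E23.card_le_of_comm hK (sup_le ((zpowers_le_of_mem hy).trans (H1.pCore_le_fitting 3))
        (H1.pCore_le_fitting 7)) (E23.sup_comm' cy c7
          ((zpowers_le_of_mem hy).trans (H1.pCore_le_centralizer_pCore (by norm_num))))
      have h5 := card_dvd_of_le (le_sup_right : pCore 7 X ≤ zpowers y ⊔ pCore 7 X)
      have h6 : Nat.card (zpowers y ⊔ pCore 7 X : Subgroup X) ≠ 49 := fun e => by
        have h7 := eq_of_le_of_card_ge (le_sup_right : pCore 7 X ≤ zpowers y ⊔ pCore 7 X)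
          (e.trans hk.symm).le
        have h8 : y ∈ pCore 3 X ⊓ pCore 7 X := ⟨hy, h7.ge (mem_sup_left (mem_zpowers y))⟩
        rw [H1.pCore_inf_pCore_eq_bot (by norm_num)] at h8
        exact hy1 h8
      have h9 : 0 < Nat.card (zpowers y ⊔ pCore 7 X : Subgroup X) := Nat.card_pos
      rw [hk] at h5
      omega
    rw [h3, bot_sup_eq] at hF
    exact E23.caseB h.sol (hF ▸ hk) hX

end H81.KR
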