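import Mathlib
import Cfsg.Agent.Base
import Cfsg.Agent.Lib.KR.Wt
import Cfsg.Agent.Lib.KR.E2
import Cfsg.Agent.Lib.KR.E23

/-! Irreducible solvable groups on an elementary abelian group of square order. -/

set_option autoImplicit false
set_option linter.unusedSectionVars false

namespace H81.KR

open Subgroup Cfsg

universe u

variable {p n : ℕ} [Fact p.Prime] {X : Type u} {U : Type*} [Group X] [Group U] [Finite X]
  [Finite U] {φ : X →* MulAut U}

theorem BS.fa (hB : BS.{u} n) (h : Fa p n φ) (hO : pCore p X = ⊥) :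
    KB (3 ^ (n - 1)) (X ⧸ fittingSubgroup X) := by
  obtain ⟨f, hf⟩ := h.exists_GL
  let k := AlgebraicClosure (ZMod p)
  let ρ : Representation k X (Fin n → k) :=
    (Matrix.toLinAlgEquiv' (R := k) (n := Fin n)).toMonoidHom.comp
      ((algebraMap (ZMod p) k).mapMatrix.toMonoidHom.comp ((Units.coeHom _).comp f))
  have hρ : Function.Injective ρ := Matrix.toLinAlgEquiv'.injective.comp
    ((Matrix.map_injective (algebraMap (ZMod p) k).injective).comp (Units.val_injective.comp hf))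
  obtain ⟨M, hM, h1, h2⟩ := hB k (Fin n → k) (by simp) X h.sol ρ
  exact h2.quot_mono (h1.le_fitting hρ (fun q _ hk => CharP.eq k
    (charP_of_injective_algebraMap (algebraMap (ZMod p) k).injective p) hk ▸ hO)
    hM.isSubnormal)

namespace Irr

theorem pow_four_le {q : ℕ} (h : 8 ≤ q) : q ^ 4 ≤ 3 ^ q := by
  induction q, h using Nat.le_induction with
  | base => norm_num
  | succ q h ih =>
    have h1 : (4 * (q + 1)) ^ 4 ≤ (5 * q) ^ 4 := Nat.pow_le_pow_left (by omega) 4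
    rw [mul_pow, mul_pow] at h1
    rw [pow_succ 3]
    omega

theorem four_mul_le {m : ℕ} (h : 4 ≤ m) : 4 * m ≤ 2 ^ m := by
  induction m, h using Nat.le_induction with
  | base => norm_num
  | succ m h ih => rw [pow_succ]; omega

theorem ineq {q m : ℕ} (h : 8 ≤ q) (h1 : 4 * m ≤ q) (h0 : 0 < m) :
    q ^ 2 * 3 ^ (2 * m - 1) ≤ 3 ^ (q - 1) := by
  have h2 : (q ^ 2) ^ 2 ≤ (3 ^ (q - 2 * m)) ^ 2 := by
    rw [← pow_mul, ← pow_mul]
    exact (pow_four_le h).trans (Nat.pow_le_pow_right (by norm_num) (by omega))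
  refine (Nat.mul_le_mul_right _ ((Nat.pow_le_pow_iff_left two_ne_zero).1 h2)).trans ?_
  rw [← pow_add]
  exact Nat.pow_le_pow_right (by norm_num) (by omega)

theorem cases {p m : ℕ} (hp : p.Prime) (h0 : 0 < m) : (p = 2 ∧ m = 1) ∨ (p = 3 ∧ m = 1) ∨
    (p = 2 ∧ m = 2) ∨ (p = 2 ∧ m = 3) ∨
    (2 * m < p ^ m ∧ (p ^ m) ^ 2 * 3 ^ (2 * m - 1) ≤ 3 ^ (p ^ m - 1)) := by
  have h2 := hp.two_le
  have key : 8 ≤ p ^ m → 4 * m ≤ p ^ m → 2 * m < p ^ m ∧
      (p ^ m) ^ 2 * 3 ^ (2 * m - 1) ≤ 3 ^ (p ^ m - 1) := fun a b => ⟨by omega, ineq a b h0⟩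
  by_cases h4 : 4 ≤ m
  · have := (four_mul_le h4).trans (Nat.pow_le_pow_left h2 m)
    exact .inr (.inr (.inr (.inr (key (by omega) this))))
  by_cases h8 : 8 ≤ p
  · have h3 := Nat.pow_le_pow_left h8 m
    refine .inr (.inr (.inr (.inr (key ?_ ?_)))) <;> interval_cases m <;> omega
  interval_cases m <;> interval_cases p <;>
    first
    | exact absurd hp (by decide)
    | exact .inr (.inr (.inr (.inr (key (by decide) (by decide)))))
    | decide

end Irr

theorem Ir.kb {m : ℕ} (h : Ir p (2 * m) φ) (hB : 2 * m < p ^ m → BS.{u} (2 * m)) :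
    KB (3 ^ (p ^ m - 1)) X := by
  rcases Irr.cases (m := m) (Fact.out : p.Prime) (by have := h.pos; omega) with
    ⟨rfl, rfl⟩ | ⟨rfl, rfl⟩ | ⟨rfl, rfl⟩ | ⟨rfl, rfl⟩ | ⟨h1, h2⟩
  · exact h.toFa.e21
  · exact h.toFa.e31
  · exact h.e22
  · exact h.e23 ((hB (by norm_num)).fa h.toFa h.pCore_eq_bot)
  · refine (KB.ext' _ (h.toFa.kb_nil H1.isNilpotent_fitting h.not_dvd_fitting)
      ((hB h1).fa h.toFa h.pCore_eq_bot)).mono ?_
    rwa [mul_comm 2 m, pow_mul, mul_comm m 2]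

end H81.KR
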