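import Mathlib
import Cfsg.Agent.Base
import Cfsg.Agent.Lib.KR.Irr

/-! The quasi-primitive case: all abelian normal subgroups are central. -/

set_option autoImplicit false
set_option linter.unusedSectionVars false

namespace H81.KR

open Subgroup Cfsg
open scoped commutatorElement

universe u

variable {G : Type u} [Group G] [Finite G]

namespace CII

/-- the centralizer modulo the center -/
def cc (N : Subgroup G) : Subgroup G where
  carrier := {g | ∀ x ∈ N, ⁅g, x⁆ ∈ center G}
  one_mem' := fun x _ => by simp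
  mul_mem' := fun {a b} ha hb x hx => by
    rw [show ⁅a * b, x⁆ = a * ⁅b, x⁆ * a⁻¹ * ⁅a, x⁆ by simp only [commutatorElement_def]; group]
    exact mul_mem (Normal.conj_mem inferInstance _ (hb x hx) a) (ha x hx)
  inv_mem' := fun {a} ha x hx => by
    rw [show ⁅a⁻¹, x⁆ = a⁻¹ * ⁅a, x⁆⁻¹ * a⁻¹⁻¹ by simp only [commutatorElement_def]; group]
    exact Normal.conj_mem inferInstance _ (inv_mem (ha x hx)) _

instance cc_normal (N : Subgroup G) [hN : N.Normal] : (cc N).Normal := ⟨fun a ha g x hx => by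
  rw [show ⁅g * a * g⁻¹, x⁆ = g * ⁅a, g⁻¹ * x * g⁆ * g⁻¹ by
    simp only [commutatorElement_def]; group]
  exact Normal.conj_mem inferInstance _ (ha _ (hN.conj_mem' x hx g)) g⟩

theorem le_cc {K N : Subgroup G} : K ≤ cc N ↔ ⁅K, N⁆ ≤ center G := by
  rw [commutator_le]
  rfl

theorem cc_sup {K N : Subgroup G} : cc K ⊓ cc N ≤ cc (K ⊔ N) := by
  rw [le_cc, Subgroup.commutator_comm, ← le_cc, sup_le_iff, le_cc, le_cc,
    Subgroup.commutator_comm K, Subgroup.commutator_comm N, ← le_cc, ← le_cc]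
  exact ⟨inf_le_left, inf_le_right⟩

theorem center_le_cent (N : Subgroup G) : center G ≤ centralizer (N : Set G) :=
  fun _ hz x _ => mem_center_iff.1 hz x

theorem le_of_relIndex_le {A B C : Subgroup G} (h1 : A ≤ B) (h2 : B ≤ C)
    (h : A.relIndex C ≤ A.relIndex B) : C ≤ B := by
  rw [← relIndex_mul_relIndex A B C h1 h2] at h
  have p1 : A.relIndex B ≠ 0 := index_ne_zero_of_finite
  have p2 : B.relIndex C ≠ 0 := index_ne_zero_of_finite
  refine relIndex_eq_one.1 (le_antisymm ?_ (Nat.pos_of_ne_zero p2))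
  exact Nat.le_of_mul_le_mul_left (by simpa using h) (Nat.pos_of_ne_zero p1)

theorem exists_inj (hZ : IsCyclic (center G)) :
    ∃ l : center G →* ℂˣ, Function.Injective l := by
  haveI : NeZero (Nat.card (center G)) := ⟨Nat.card_pos.ne'⟩
  have e := mulEquivOfCyclicCardEq (G := center G) (G' := rootsOfUnity (Nat.card (center G)) ℂ)
    (Complex.card_rootsOfUnity _).symm
  exact ⟨(Subgroup.subtype _).comp e.toMonoidHom, (Subgroup.subtype_injective _).comp e.injective⟩

theorem dual (hZ : IsCyclic (center G)) {N W W₀ : Subgroup G} (h1 : ⁅W, W⁆ ≤ W₀)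
    (h2 : N ≤ cc W) (h3 : W₀ ≤ centralizer (N : Set G)) :
    (centralizer (W : Set G)).relIndex N ≤ W₀.relIndex W := by
  obtain ⟨l, hl⟩ := exists_inj hZ
  have c1 : ∀ (n : N) (w : W) (g : G), g * ⁅(n : G), (w : G)⁆ * g⁻¹ = ⁅(n : G), (w : G)⁆ :=
    fun n w g => by rw [mem_center_iff.1 (h2 n.2 w w.2) g, mul_inv_cancel_right]
  let β : N →* (W →* ℂˣ) := MonoidHom.mk' (fun n => MonoidHom.mk'
    (fun w => l ⟨⁅(n : G), (w : G)⁆, h2 n.2 w w.2⟩) fun w w' => by
      rw [← map_mul]
      refine congrArg l (Subtype.ext ?_)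
      change ⁅(n : G), (w * w' : G)⁆ = ⁅(n : G), (w : G)⁆ * ⁅(n : G), (w' : G)⁆
      rw [← c1 n w' w]
      simp only [commutatorElement_def]
      group) fun n n' => MonoidHom.ext fun w => by
    change l _ = l _ * l _
    rw [mul_comm, ← map_mul]
    refine congrArg l (Subtype.ext ?_)
    change ⁅(n * n' : G), (w : G)⁆ = ⁅(n' : G), (w : G)⁆ * ⁅(n : G), (w : G)⁆
    rw [← c1 n' w n]
    simp only [commutatorElement_def]
    group
  have hβ : ∀ n w, β n w = 1 ↔ ⁅(n : G), (w : G)⁆ = 1 := fun n w =>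
    (map_eq_one_iff l hl).trans Subtype.ext_iff
  have hk : β.ker = (centralizer (W : Set G)).subgroupOf N := by
    ext n
    exact ⟨fun e w hw => (commutatorElement_eq_one_iff_mul_comm.1
      ((hβ n ⟨w, hw⟩).1 (DFunLike.congr_fun e _))).symm, fun e => MonoidHom.ext fun w =>
        (hβ n w).2 (commutatorElement_eq_one_iff_mul_comm.2 (e w w.2).symm)⟩
  haveI := H2.normal_subgroupOf_of_commutator_le h1
  letI : CommGroup (W ⧸ W₀.subgroupOf W) :=
    { (inferInstance : Group _) with mul_comm := (H2.isMulCommutative_section h1).is_comm.comm }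
  haveI : NeZero (Monoid.exponent (W ⧸ W₀.subgroupOf W)) := ⟨Monoid.exponent_ne_zero_of_finite⟩
  have e := CommGroup.card_monoidHom_of_hasEnoughRootsOfUnity (W ⧸ W₀.subgroupOf W) ℂ
  haveI : Finite ((W ⧸ W₀.subgroupOf W) →* ℂˣ) := Nat.finite_of_card_ne_zero (e ▸ Nat.card_pos.ne')
  rw [relIndex, ← hk, index_ker, relIndex, index, ← e]
  refine Nat.card_le_card_of_injective (fun μ => QuotientGroup.lift _ μ.1 fun w hw => ?_)
    fun μ ν h => Subtype.ext (MonoidHom.ext fun w => DFunLike.congr_fun h (w : W ⧸ _))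
  obtain ⟨n, hn⟩ := μ.2
  exact hn ▸ (hβ n w).2 (commutatorElement_eq_one_iff_mul_comm.2 (h3 hw n n.2))

theorem exists_sq (hZ : IsCyclic (center G)) {E : Subgroup G} (h0 : center G ≤ E)
    (h1 : ⁅E, E⁆ ≤ center G) (h2 : E ⊓ centralizer (E : Set G) ≤ center G) :
    ∃ e, (center G).relIndex E = e ^ 2 := by
  obtain ⟨M, ⟨m1, m2, m3⟩, hm⟩ := wellFounded_gt.has_min
    {M : Subgroup G | center G ≤ M ∧ M ≤ E ∧ M ≤ centralizer (M : Set G)}
    ⟨_, le_rfl, h0, center_le_cent _⟩
  have m4 : centralizer (M : Set G) ⊓ E = M ⊓ E := by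
    refine le_antisymm (fun x hx => ⟨?_, hx.2⟩) (inf_le_inf_right _ m3)
    by_contra e
    refine hm (M ⊔ zpowers x) ⟨m1.trans le_sup_left, sup_le m2 (zpowers_le_of_mem hx.2), ?_⟩
      (lt_of_le_not_ge le_sup_left fun e1 => e (e1 (mem_sup_right (mem_zpowers x))))
    have a1 : zpowers x ≤ centralizer (M : Set G) := zpowers_le_of_mem hx.1
    have a2 : M ⊔ zpowers x ≤ centralizer (zpowers x : Set G) :=
      sup_le (le_centralizer_iff.1 a1) (le_centralizer (zpowers x))
    exact sup_le (le_centralizer_iff.1 (sup_le m3 a1)) (le_centralizer_iff.1 a2)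
  have m5 : centralizer (E : Set G) ⊓ M = center G ⊓ M := le_antisymm
    (fun x hx => ⟨h2 ⟨m2 hx.2, hx.1⟩, hx.2⟩) (inf_le_inf_right _ (center_le_cent E))
  have d1 := dual hZ (N := E) (W := M) ((commutator_mono m2 m2).trans h1)
    (le_cc.2 ((commutator_mono le_rfl m2).trans h1)) (center_le_cent E)
  have d2 := dual hZ (N := M) (W := E) (h1.trans m1)
    (le_cc.2 ((commutator_mono m2 le_rfl).trans h1)) m3
  rw [← inf_relIndex_right, m4, inf_relIndex_right] at d1
  rw [← inf_relIndex_right, m5, inf_relIndex_right] at d2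
  exact ⟨_, by rw [← relIndex_mul_relIndex _ M E m1 m2, le_antisymm d1 d2, sq]⟩

theorem inf_cent_le
    (hA : ∀ A : Subgroup G, A.Normal → (∀ a ∈ A, ∀ b ∈ A, a * b = b * a) → A ≤ center G)
    (N : Subgroup G) [N.Normal] : N ⊓ centralizer (N : Set G) ≤ center G :=
  hA _ inferInstance fun a ha _ hb => hb.2 a ha.1

theorem chief (hs : Group.IsSolvable G) {N : Subgroup G} [N.Normal] (h : ¬ N ≤ center G)
    (h0 : center G ≤ N) : ∃ (E : Subgroup G) (_ : E.Normal) (p a : ℕ), p.Prime ∧ center G ≤ E ∧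
      E ≤ N ∧ ¬ E ≤ center G ∧ (center G).relIndex E = p ^ a ∧ ∀ m, a = 2 * m →
        (2 * m < p ^ m → BS.{u} (2 * m)) → KB (3 ^ (p ^ m - 1)) (G ⧸ cc E) := by
  let π := QuotientGroup.mk' (center G)
  have hπ : Function.Surjective π := QuotientGroup.mk'_surjective _
  have hk : π.ker = center G := QuotientGroup.ker_mk' _
  haveI : (N.map π).Normal := Normal.map inferInstance π hπ
  obtain ⟨U, u1, u2, u3, p, hp, -, u4, u5⟩ := H3.exists_normal_elementary_le (N.map π)
    (by rwa [Ne, Subgroup.map_eq_bot_iff, hk]) inferInstance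
  haveI := u1.normal
  haveI := Fact.mk hp
  obtain ⟨a, ha⟩ := u5.exists_card_eq
  have e1 : (U.comap π).map π = U := map_comap_eq_self_of_surjective hπ U
  refine ⟨U.comap π, inferInstance, p, a, hp, hk.ge.trans (ker_le_comap π U),
    (comap_mono u2).trans (comap_map_eq_self (hk.le.trans h0)).le, fun e => u1.ne_bot ?_,
    (congrArg (relIndex · _) hk).symm.trans (by rw [relIndex_ker, e1, ha]), fun m hm hB => ?_⟩
  · rwa [← e1, Subgroup.map_eq_bot_iff, hk]
  let φ : G →* MulAut U := MulAut.conjNormal.comp π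
  have ir : Ir p (2 * m) φ.range.subtype :=
    { comm := u3.is_comm.comm
      exp := fun x => Subtype.ext (u4 x x.2)
      card := hm ▸ ha
      inj := Subgroup.subtype_injective _
      sol := Group.isSolvable_of_surjective φ.rangeRestrict_surjective
      pos := Nat.pos_of_ne_zero fun e => u1.ne_bot (by
        rwa [hm, e, pow_zero, card_eq_one] at ha)
      irr := fun W hW => by
        have hn : (W.map U.subtype).Normal := ⟨by
          rintro _ ⟨w, hw, rfl⟩ g
          obtain ⟨g, rfl⟩ := hπ g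
          exact ⟨_, hW ⟨φ g, g, rfl⟩ w hw, rfl⟩⟩
        rcases u1.eq_bot_or_eq _ hn (map_subtype_le W) with e | e
        · exact .inl ((map_eq_bot_iff_of_injective _ U.subtype_injective).1 e)
        · exact .inr (map_injective U.subtype_injective (by
            rw [e, ← MonoidHom.range_eq_map, range_subtype])) }
  refine (ir.kb hB).quot_of_ker_le φ.rangeRestrict fun g hg x hx => ?_
  have := congrArg Subtype.val (MulEquiv.congr_fun (congrArg Subtype.val hg) ⟨π x, hx⟩)
  refine hk.le ?_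
  rw [MonoidHom.mem_ker, map_commutatorElement, commutatorElement_def]
  exact mul_inv_eq_one.2 this

theorem tn (hs : Group.IsSolvable G) (hZ : IsCyclic (center G))
    (hA : ∀ A : Subgroup G, A.Normal → (∀ a ∈ A, ∀ b ∈ A, a * b = b * a) → A ≤ center G)
    {n : ℕ} (ih : ∀ m < n, BS.{u} m) (N : Subgroup G) : ∀ [N.Normal], center G ≤ N →
      ⁅N, N⁆ ≤ center G → (center G).relIndex N ≤ n ^ 2 →
      ∃ e, (center G).relIndex N = e ^ 2 ∧ KB (3 ^ (e - 1)) (G ⧸ cc N) := by
  induction N using WellFoundedLT.induction with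
  | _ N IH =>
  intro _ h0 h1 hn
  by_cases h : N ≤ center G
  · haveI := QuotientGroup.subsingleton_quotient_top (G := G)
    exact ⟨1, relIndex_eq_one.2 h, kb_one.quot_mono (M := ⊤)
      (le_cc.2 ((commutator_le_right _ _).trans h))⟩
  obtain ⟨E, _, p, a, hp, e0, e1, e2, e3, e4⟩ := chief hs h h0
  have e5 := inf_cent_le hA E
  obtain ⟨e, he⟩ := exists_sq hZ e0 ((commutator_mono e1 e1).trans h1) e5
  obtain ⟨m, -, rfl⟩ := (Nat.dvd_prime_pow hp).1 (e3 ▸ he ▸ dvd_pow_self e two_ne_zero : e ∣ p ^ a)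
  have ha : a = 2 * m := Nat.pow_right_injective hp.two_le (by
    simp only
    rw [← e3, he, ← pow_mul, mul_comm])
  set N₁ := centralizer (E : Set G) ⊓ N with hN₁
  have n0 : center G ≤ N₁ := le_inf (center_le_cent E) h0
  have n1 : N₁.relIndex (E ⊔ N₁) = (center G).relIndex E := by
    rw [relIndex_sup_right, ← inf_relIndex_right, ← inf_relIndex_right (center G)]
    congr 1
    exact le_antisymm (fun x hx => ⟨e5 ⟨hx.2, hx.1.1⟩, hx.2⟩) (inf_le_inf_right _ n0)
  have n2 : N = E ⊔ N₁ := le_antisymm (le_of_relIndex_le le_sup_right (sup_le e1 inf_le_right) (by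
    rw [n1, inf_relIndex_right]
    exact dual hZ ((commutator_mono e1 e1).trans h1)
      (le_cc.2 ((commutator_mono le_rfl e1).trans h1)) (center_le_cent N))) (sup_le e1 inf_le_right)
  have n3 : (center G).relIndex N = (center G).relIndex N₁ * (p ^ m) ^ 2 := by
    rw [← he, ← n1, ← n2, relIndex_mul_relIndex _ _ _ n0 inf_le_right]
  have p1 : 0 < (center G).relIndex N₁ := Nat.pos_of_ne_zero index_ne_zero_of_finite
  have p2 : 0 < p ^ m := Nat.pow_pos hp.pos
  obtain ⟨f, hf, k1⟩ := IH N₁ (lt_of_le_not_ge inf_le_right fun e =>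
    e2 ((le_inf le_rfl (e1.trans (e.trans inf_le_left))).trans e5)) n0
    ((commutator_mono inf_le_right inf_le_right).trans h1)
    ((Nat.le_mul_of_pos_right _ (Nat.pow_pos p2)).trans (n3 ▸ hn))
  have p3 : p ^ m ≤ n := (Nat.pow_le_pow_iff_left two_ne_zero).1
    ((Nat.le_mul_of_pos_left _ p1).trans (n3 ▸ hn))
  refine ⟨f * p ^ m, by rw [n3, hf, mul_pow], (((e4 m ha fun h => ih _ (h.trans_le p3)).inf
    k1).quot_mono (cc_sup.trans (n2 ▸ le_rfl))).mono ?_⟩
  have p4 : 0 < f := Nat.pos_of_ne_zero fun e => by simp [hf, e] at p1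
  rw [← pow_add]
  refine Nat.pow_le_pow_right (by norm_num) ?_
  obtain ⟨f, rfl⟩ := Nat.exists_eq_succ_of_ne_zero p4.ne'
  rw [Nat.succ_mul]
  have := Nat.le_mul_of_pos_right f p2
  omega

end CII

open CII

theorem class_two
    (hA : ∀ A : Subgroup G, A.Normal → (∀ a ∈ A, ∀ b ∈ A, a * b = b * a) → A ≤ center G) :
    ⁅fittingSubgroup G, fittingSubgroup G⁆ ≤ center G ∧
      fittingSubgroup G ⊓ centralizer (fittingSubgroup G : Set G) ≤ center G := by
  refine ⟨?_, inf_cent_le hA _⟩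
  set F := fittingSubgroup G
  have h1 : ⁅⁅cc F, F⁆, F⁆ = ⊥ :=
    commutator_eq_bot_iff_le_centralizer.2 ((le_cc.1 le_rfl).trans (center_le_cent F))
  have h2 := commutator_eq_bot_iff_le_centralizer.1
    (commutator_commutator_eq_bot_of_rotate (Subgroup.commutator_comm (cc F) F ▸ h1) h1)
  have h3 := hA (⁅F, F⁆ ⊓ cc F) inferInstance fun a ha b hb => (h2 ha.1 b hb.2).symm
  have h4 : ∀ i, F.lowerCentralSeries (i + 1) ≤ center G → ⁅F, F⁆ ≤ center G := fun i => by
    induction i with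
    | zero => exact id
    | succ i ih =>
      exact fun h => ih ((le_inf (Subgroup.lowerCentralSeries_antitone F (Nat.le_add_left 1 i))
        (le_cc.2 h)).trans h3)
  obtain ⟨c, hc⟩ := (isNilpotent_iff_lowerCentralSeries F).1 H1.isNilpotent_fitting
  exact h4 c ((Subgroup.lowerCentralSeries_antitone F (Nat.le_succ c)).trans (hc.le.trans bot_le))

/-- the quasi-primitive case -/
theorem caseII (hs : Group.IsSolvable G) (hZ : IsCyclic (center G))
    (hA : ∀ A : Subgroup G, A.Normal → (∀ a ∈ A, ∀ b ∈ A, a * b = b * a) → A ≤ center G)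
    {n : ℕ} (hn : (center G).relIndex (fittingSubgroup G) ≤ n ^ 2) (ih : ∀ m < n, BS.{u} m) :
    KB (3 ^ (n - 1)) (G ⧸ fittingSubgroup G) := by
  obtain ⟨h1, h2⟩ := class_two hA
  obtain ⟨e, he, k⟩ := tn hs hZ hA ih _ H1.center_le_fitting h1 hn
  have h3 := dual hZ h1 le_rfl (center_le_cent _)
  rw [le_antisymm ((le_inf H1.centralizer_fitting_le le_rfl).trans h2) (center_le_cent _)] at h3
  refine (k.quot_mono (le_of_relIndex_le H1.center_le_fitting (le_cc.2 h1) h3)).mono
    (Nat.pow_le_pow_right (by norm_num) (Nat.sub_le_sub_right ?_ 1))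
  exact (Nat.pow_le_pow_iff_left two_ne_zero).1 (he ▸ hn)

end H81.KR
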