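import Mathlib
import Cfsg.Agent.Base
import Cfsg.Agent.Lib.KR.CI
import Cfsg.Agent.Lib.KR.CII

/-! The bound for solvable linear groups over algebraically closed fields. -/

set_option autoImplicit false
set_option linter.unusedSectionVars false

namespace H81.KR

open Subgroup Cfsg

universe u

theorem isNilpotent_of_sub_quot {k V : Type*} [Field k] [AddCommGroup V] [Module k V]
    {f : Module.End k V} {W : Submodule k V} (h : W ≤ W.comap f)
    (h1 : IsNilpotent ((f.restrict h : Module.End k W) - 1))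
    (h2 : IsNilpotent ((W.mapQ W f h : Module.End k (V ⧸ W)) - 1)) : IsNilpotent (f - 1) := by
  obtain ⟨a, ha⟩ := h1
  obtain ⟨b, hb⟩ := h2
  have e1 : ∀ (j : ℕ) (w : W), ((f - 1) ^ j) w = ((((f.restrict h : Module.End k W) - 1) ^ j) w : W) :=
    fun j => by
      induction j with
      | zero => simp
      | succ j ih =>
        intro w
        rw [pow_succ, pow_succ, Module.End.mul_apply, Module.End.mul_apply, ← ih]
        simp
  have e2 : ∀ (j : ℕ) (v : V), W.mkQ (((f - 1) ^ j) v) =
      (((W.mapQ W f h : Module.End k (V ⧸ W)) - 1) ^ j) (W.mkQ v) := fun j => by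
    induction j with
    | zero => simp
    | succ j ih =>
      intro v
      rw [pow_succ, pow_succ, Module.End.mul_apply, Module.End.mul_apply, ih]
      simp
  refine ⟨a + b, LinearMap.ext fun v => ?_⟩
  have h3 : ((f - 1) ^ b) v ∈ W := by
    rw [← Submodule.Quotient.mk_eq_zero, ← Submodule.mkQ_apply, e2, hb, LinearMap.zero_apply]
  rw [pow_add, Module.End.mul_apply, e1 a ⟨_, h3⟩, ha]
  rfl

theorem bs_irr {k : Type} [Field k] [IsAlgClosed k] {V : Type} [AddCommGroup V] [Module k V]
    [FiniteDimensional k V] [Nontrivial V] {G : Type u} [Group G] [Finite G]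
    (hs : Group.IsSolvable G) {ρ : Representation k G V} (hi : IrrRep ρ)
    (hf : Function.Injective ρ) (ih : ∀ m < Module.finrank k V, BS.{u} m) :
    KB (3 ^ (Module.finrank k V - 1)) (G ⧸ fittingSubgroup G) := by
  by_cases hA : ∀ A : Subgroup G, A.Normal → (∀ a ∈ A, ∀ b ∈ A, a * b = b * a) → A ≤ center G
  · exact caseII hs (hi.isCyclic_center hf) hA
      (hi.relIndex_le_sq hf (class_two hA).1 (class_two hA).2) ih
  · push Not at hA
    obtain ⟨A, _, h1, h2⟩ := hA
    exact caseI hs hi hf ih h1 h2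

theorem bs (n : ℕ) : BS.{u} n := by
  induction n using Nat.strong_induction_on with
  | _ n ih =>
  intro k _ _ V _ _ _ hn G _ _ hs ρ
  rcases subsingleton_or_nontrivial V with h0 | h0
  · haveI := QuotientGroup.subsingleton_quotient_top (G := G)
    exact ⟨⊤, inferInstance, ⟨0, fun g _ => ⟨0, Subsingleton.elim _ _⟩⟩,
      kb_one.mono (Nat.one_le_pow _ _ (by norm_num))⟩
  by_cases hi : IrrRep ρ
  · let σ : Representation k (G ⧸ ρ.ker) V := QuotientGroup.lift ρ.ker ρ fun _ h => h
    have hσ : Function.Injective σ := (injective_iff_map_eq_one σ).2 fun x hx => by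
      obtain ⟨x, rfl⟩ := QuotientGroup.mk_surjective x
      exact (QuotientGroup.eq_one_iff x).2 hx
    have h1 := bs_irr (ρ := σ) inferInstance (fun W hW => hi W fun g => hW g) hσ (hn ▸ ih)
    obtain ⟨c, hc⟩ := (isNilpotent_iff_lowerCentralSeries _).1
      (H1.isNilpotent_fitting (G := G ⧸ ρ.ker))
    refine ⟨(fittingSubgroup _).comap (QuotientGroup.mk' ρ.ker), inferInstance, ⟨c, fun g hg => ?_⟩,
      hn ▸ h1.comap _⟩
    have h2 := mem_map_of_mem (QuotientGroup.mk' ρ.ker) hg
    rw [map_lowerCentralSeries] at h2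
    have h3 := mem_bot.1 (hc.le (lowerCentralSeries_mono c (map_comap_le _ _) h2))
    rw [MonoidHom.mem_ker.1 ((QuotientGroup.eq_one_iff g).1 h3), sub_self]
    exact IsNilpotent.zero
  · simp only [IrrRep, not_forall, not_or] at hi
    obtain ⟨W, hW, h1, h2⟩ := hi
    have hW' : ∀ g, W ≤ W.comap (ρ g) := hW
    have e := W.finrank_quotient_add_finrank
    have p1 : 0 < Module.finrank k W := by
      rwa [Nat.pos_iff_ne_zero, Ne, Submodule.finrank_eq_zero]
    have p2 := Submodule.finrank_lt h2
    obtain ⟨M₁, _, ⟨c₁, u1⟩, k1⟩ := ih _ (hn ▸ p2) k W rfl G hs (ρ.subrepresentation W hW')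
    obtain ⟨M₂, _, ⟨c₂, u2⟩, k2⟩ := ih _ (by omega) k (V ⧸ W) rfl G hs (ρ.quotient W hW')
    refine ⟨M₁ ⊓ M₂, inferInstance, ⟨max c₁ c₂, fun g hg => isNilpotent_of_sub_quot (hW' g)
      (u1 g (lowerCentralSeries_mono _ inf_le_left 
        (Subgroup.lowerCentralSeries_antitone _ (le_max_left _ _) hg)))
      (u2 g (lowerCentralSeries_mono _ inf_le_right 
        (Subgroup.lowerCentralSeries_antitone _ (le_max_right _ _) hg)))⟩,
      (k1.inf k2).mono ?_⟩
    rw [← pow_add]
    exact Nat.pow_le_pow_right (by norm_num) (by omega)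

end H81.KR
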