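import Mathlib
import Cfsg.Agent.Base
import Cfsg.Agent.Lib.KR.Main
import Cfsg.Agent.Lib.Core.Frattini

/-! The class number of a solvable group without normal `p'`-subgroup. -/

set_option autoImplicit false
set_option linter.unusedSectionVars false

namespace H81.KR

open Subgroup Cfsg

universe u

theorem grp_elem {X : Type u} [Group X] [Finite X] (hs : Group.IsSolvable X) {p r : ℕ}
    [Fact p.Prime] (hc : centralizer (pCore p X : Set X) = pCore p X)
    (he : ∀ v ∈ pCore p X, v ^ p = 1) (hr : Nat.card (pCore p X) = p ^ r) :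
    Nat.card (ConjClasses X) ≤ p ^ r * 3 ^ (r - 1) := by
  set V := pCore p X with hV
  let φ : X →* MulAut V := MulAut.conjNormal
  have hk : φ.rangeRestrict.ker = V := by
    rw [MonoidHom.ker_rangeRestrict]
    refine Eq.trans (b := centralizer (V : Set X)) (Subgroup.ext fun g => ⟨fun e x hx => ?_,
      fun e => MulEquiv.ext fun x => Subtype.ext ?_⟩) hc
    · exact (mul_inv_eq_iff_eq_mul.1 (congrArg Subtype.val (MulEquiv.congr_fun e ⟨x, hx⟩))).symm
    · exact mul_inv_eq_iff_eq_mul.2 (e x x.2).symm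
  have hf := φ.rangeRestrict_surjective
  have fa : Fa p r φ.range.subtype := ⟨fun a b => Subtype.ext (hc.ge b.2 a a.2),
    fun a => Subtype.ext (he a a.2), hr, Subgroup.subtype_injective _,
    Group.isSolvable_of_surjective hf⟩
  have hO : pCore p φ.range = ⊥ := by
    rw [← H1.map_pCore_of_ker hf (H1.isPGroup_pCore.to_le hk.le), Subgroup.map_eq_bot_iff, hk]
  set F := (fittingSubgroup φ.range).comap φ.rangeRestrict with hF
  have hVF : V ≤ F := hk ▸ ker_le_comap _ _
  let ψ := φ.rangeRestrict.subgroupComap (fittingSubgroup φ.range)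
  have hψ : Function.Surjective ψ := MonoidHom.subgroupComap_surjective_of_surjective _ _ hf
  have kψ : V.subgroupOf F = ψ.ker := by
    ext x
    exact ⟨fun e => Subtype.ext (hk.ge e), fun e => hk.le (congrArg Subtype.val e)⟩
  let e := (QuotientGroup.quotientMulEquivOfEq kψ).trans
    (QuotientGroup.quotientKerEquivOfSurjective ψ hψ)
  have h1 := kgv (p := p) (V.subgroupOf F) (fun v hv => Subtype.ext (he v hv))
    (Subgroup.ext fun g => ⟨fun h => hc.le fun x hx => congrArg Subtype.val (h ⟨x, hVF hx⟩ hx),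
      fun h x hx => Subtype.ext (hc.ge h x hx)⟩)
    (fun h => pCore_ne_bot_of_dvd_fitting (by rwa [index, Nat.card_congr e.toEquiv] at h) hO)
    (Group.nilpotent_of_surjective e.symm.toMonoidHom e.symm.surjective)
  rw [Nat.card_congr (subgroupOfEquivOfLe hVF).toEquiv, hr] at h1
  exact (card_conjClasses_le_mul F).trans
    (Nat.mul_le_mul h1 (((bs r).fa fa hO).comap φ.rangeRestrict).top)

theorem grp {X : Type u} [Group X] [Finite X] (hs : Group.IsSolvable X) {p : ℕ} [Fact p.Prime]
    (h : pPrimeCore p X = ⊥) :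
    Nat.card (ConjClasses X) ≤
      3 ^ ((Nat.card X).factorization p - 1) * p ^ (Nat.card X).factorization p := by
  have hp : p.Prime := Fact.out
  set P := pCore p X with hP
  have h1 : IsPGroup p P := H1.isPGroup_pCore
  set D := (frattini P).map P.subtype with hD
  haveI : D.Normal := ConjAct.normal_of_characteristic_of_normal
  have hDP : D ≤ P := map_subtype_le _
  have e1 : pCore p (X ⧸ D) = P.map (QuotientGroup.mk' D) := (H1.map_mk'_pCore (h1.to_le hDP)).symm
  have e2 : fittingSubgroup (X ⧸ D) = pCore p (X ⧸ D) := by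
    rw [H1.fitting_quotient_of_le_frattini (H1.map_subtype_frattini_le P),
      H1.fitting_eq_pCore_of_pPrimeCore_eq_bot h, e1]
  obtain ⟨c1, c2⟩ := (H1.map_subtype_frattini_le_iff h1).1 (le_refl D)
  obtain ⟨r, hr⟩ := (H1.isPGroup_pCore (p := p) (G := X ⧸ D)).exists_card_eq
  have h2 := grp_elem (X := X ⧸ D) inferInstance (le_antisymm (e2 ▸ H1.centralizer_fitting_le) (by
    rw [e1]
    rintro _ ⟨x, hx, rfl⟩ _ ⟨y, hy, rfl⟩
    rw [← commutatorElement_eq_one_iff_mul_comm, ← map_commutatorElement]
    exact (QuotientGroup.eq_one_iff _).2 (c1 (commutator_mem_commutator hy hx)))) (by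
    rw [e1]
    rintro _ ⟨x, hx, rfl⟩
    rw [← map_pow]
    exact (QuotientGroup.eq_one_iff _).2 (c2 x hx)) hr
  obtain ⟨s, hs⟩ := (h1.to_le hDP).exists_card_eq
  have h3 : p ^ (s + r) ∣ Nat.card X := by
    rw [pow_add, ← hs, ← hr, card_eq_card_quotient_mul_card_subgroup D, mul_comm]
    exact Nat.mul_dvd_mul_right (card_subgroup_dvd_card _) _
  have h4 : s + r ≤ (Nat.card X).factorization p :=
    (hp.pow_dvd_iff_le_factorization Nat.card_pos.ne').1 h3
  refine (card_conjClasses_le_mul D).trans ((Nat.mul_le_mul (card_cc_le_card.trans hs.le) h2).trans ?_)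
  rw [← mul_assoc, ← pow_add, mul_comm]
  exact Nat.mul_le_mul (Nat.pow_le_pow_right (by norm_num) (by omega))
    (Nat.pow_le_pow_right hp.pos h4)

end H81.KR
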